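import Cfsg.Agent.Lib.Helper39.SLmin.Line2

/-!
# Block matrices `[[S, X], [0, 1]]` in `SL (Fin 2 ⊕ κ) F` (helper39): definitions
-/

set_option autoImplicit false
set_option linter.unusedSectionVars false

namespace Cfsg.Agent.Lib.Helper39.SLmin

open Matrix Cfsg
open scoped LinearAlgebra.Projectivization

variable {F : Type*} [Field F] {κ : Type*} [Fintype κ] [DecidableEq κ]

/-- the block matrix `[[S, X], [0, 1]]`. -/
def PP (S : Matrix.SpecialLinearGroup (Fin 2) F) (X : Matrix (Fin 2) κ F) :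
    Matrix.SpecialLinearGroup (Fin 2 ⊕ κ) F :=
  ⟨Matrix.fromBlocks (S : Matrix (Fin 2) (Fin 2) F) X 0 1, by
    rw [Matrix.det_fromBlocks_zero₂₁, S.2, Matrix.det_one, one_mul]⟩

theorem PP_coe (S : Matrix.SpecialLinearGroup (Fin 2) F) (X : Matrix (Fin 2) κ F) :
    (PP S X : Matrix (Fin 2 ⊕ κ) (Fin 2 ⊕ κ) F)
      = Matrix.fromBlocks (S : Matrix (Fin 2) (Fin 2) F) X 0 1 := rfl

theorem PP_mul (S S' : Matrix.SpecialLinearGroup (Fin 2) F) (X X' : Matrix (Fin 2) κ F) :
    PP S X * PP S' X' = PP (S * S') ((S : Matrix (Fin 2) (Fin 2) F) * X' + X) := by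
  apply sl_ext
  rw [Matrix.SpecialLinearGroup.coe_mul, PP_coe, PP_coe, PP_coe, Matrix.fromBlocks_multiply,
    Matrix.SpecialLinearGroup.coe_mul]
  simp

theorem PP_one : PP (1 : Matrix.SpecialLinearGroup (Fin 2) F) (0 : Matrix (Fin 2) κ F) = 1 := by
  apply sl_ext
  rw [PP_coe, Matrix.SpecialLinearGroup.coe_one, Matrix.SpecialLinearGroup.coe_one,
    Matrix.fromBlocks_one]

theorem PP_injective {S S' : Matrix.SpecialLinearGroup (Fin 2) F} {X X' : Matrix (Fin 2) κ F}
    (h : PP S X = PP S' X') : S = S' ∧ X = X' := by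
  have h1 := sl_coe_congr h
  rw [PP_coe, PP_coe, Matrix.fromBlocks_inj] at h1
  exact ⟨sl_ext h1.1, h1.2.1⟩

/-- upper unitriangular element of `SL₂`. -/
def xU (t : F) : Matrix.SpecialLinearGroup (Fin 2) F := ⟨!![1, t; 0, 1], by simp [Matrix.det_fin_two_of]⟩

/-- lower unitriangular element of `SL₂`. -/
def xL (t : F) : Matrix.SpecialLinearGroup (Fin 2) F := ⟨!![1, 0; t, 1], by simp [Matrix.det_fin_two_of]⟩

theorem xU_coe (t : F) : (xU t : Matrix (Fin 2) (Fin 2) F) = !![1, t; 0, 1] := rfl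

theorem xL_coe (t : F) : (xL t : Matrix (Fin 2) (Fin 2) F) = !![1, 0; t, 1] := rfl

section wQ

variable {ι : Type*} [Fintype ι] [DecidableEq ι]

open Classical in
/-- indicator function of the group of transvections with centre `p`. -/
noncomputable def wQ (p : ℙ F (ι → F)) (x : Matrix.SpecialLinearGroup ι F) : ℂ :=
  if ∃ φ : ι → F, φ ⬝ᵥ p.rep = 0 ∧ x = tv p.rep φ then 1 else 0

end wQ

end Cfsg.Agent.Lib.Helper39.SLmin
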