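import Cfsg.Agent.Lib.Helper39.SLmin.Transv
import Cfsg.Prelude.Def_Characters

/-!
# All nontrivial transvections of `SL_n(F)`, `n ≥ 3`, are conjugate (helper39)
-/

set_option autoImplicit false
set_option linter.unusedSectionVars false

namespace Cfsg.Agent.Lib.Helper39.SLmin

open Matrix Cfsg
open scoped LinearAlgebra.Projectivization

variable {F : Type*} [Field F] {ι : Type*} [Fintype ι] [DecidableEq ι]

theorem cf_conj {χ : Matrix.SpecialLinearGroup ι F → ℂ}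
    (hχ : IsClassFunction (Matrix.SpecialLinearGroup ι F) χ)
    (g g' x : Matrix.SpecialLinearGroup ι F) (hg : g * g' = 1) : χ (g * x * g') = χ x := by
  have : g' = g⁻¹ := (inv_eq_of_mul_eq_one_right hg).symm
  rw [this, hχ]

theorem chi_tv_step1 {χ : Matrix.SpecialLinearGroup ι F → ℂ}
    (hχ : IsClassFunction (Matrix.SpecialLinearGroup ι F) χ) {i₀ i₁ : ι} (h01 : i₀ ≠ i₁)
    {φ : ι → F} (h0 : φ i₀ = 0) (h1 : φ i₁ ≠ 0) :
    χ (tv (ee i₀) φ) = χ (tv (ee i₀) (φ i₁ • ee i₁)) := by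
  set t := φ i₁ with ht
  set ζ : ι → F := ee i₁ - t⁻¹ • φ with hζ
  have hζ1 : ζ ⬝ᵥ ee i₁ = 0 := by
    rw [dot_ee, hζ, Pi.sub_apply, ee_apply, if_pos rfl, Pi.smul_apply, smul_eq_mul, ← ht,
      inv_mul_cancel₀ h1, sub_self]
  have hζ0 : ζ i₀ = 0 := by
    rw [hζ, Pi.sub_apply, ee_apply, if_neg h01, Pi.smul_apply, h0, smul_zero, sub_zero]
  have hφ0 : φ ⬝ᵥ ee i₀ = 0 := by rw [dot_ee, h0]
  have key := conj_tv (tv (ee i₁) ζ)⁻¹ (tv (ee i₁) ζ) (inv_mul_cancel _) hφ0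
  rw [← cf_conj hχ (tv (ee i₁) ζ)⁻¹ (tv (ee i₁) ζ) _ (inv_mul_cancel _), key]
  congr 2
  · rw [tv_inv hζ1, tv_mulVec (by rw [neg_dotProduct, hζ1, neg_zero]), neg_dotProduct, dot_ee, hζ0]
    simp
  · rw [vecMul_tv hζ1, dot_ee, ← ht, hζ, smul_sub, smul_smul, mul_inv_cancel₀ h1, one_smul]
    abel

theorem diag2n_mul_inv {i j : ι} (hij : i ≠ j) (a : F) (ha : a ≠ 0) :
    Matrix.SpecialLinearGroup.diag2n hij a ha
      * Matrix.SpecialLinearGroup.diag2n hij a⁻¹ (inv_ne_zero ha) = 1 := by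
  apply sl_ext
  rw [Matrix.SpecialLinearGroup.coe_mul, Matrix.SpecialLinearGroup.diag2n_coe,
    Matrix.SpecialLinearGroup.diag2n_coe, diagonal_mul_diagonal, Matrix.SpecialLinearGroup.coe_one,
    ← diagonal_one]
  congr 1
  ext k
  by_cases h1 : k = i
  · simp [h1, ha]
  · by_cases h2 : k = j
    · simp [h2, hij.symm, ha]
    · simp [h1, h2]

theorem chi_tv_step2 {χ : Matrix.SpecialLinearGroup ι F → ℂ}
    (hχ : IsClassFunction (Matrix.SpecialLinearGroup ι F) χ) {i₀ i₁ i₂ : ι} (h01 : i₀ ≠ i₁)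
    (h02 : i₀ ≠ i₂) (h12 : i₁ ≠ i₂) {t : F} (ht : t ≠ 0) :
    χ (tv (ee i₀) (t • ee i₁)) = χ (tv (ee i₀) (ee i₁ : ι → F)) := by
  have h0 : (t • (ee i₁ : ι → F)) ⬝ᵥ ee i₀ = 0 := by
    rw [dot_ee, Pi.smul_apply, ee_apply, if_neg h01, smul_zero]
  have key := conj_tv _ _ (diag2n_mul_inv h12 t ht) h0
  rw [← cf_conj hχ _ _ _ (diag2n_mul_inv h12 t ht), key]
  congr 2
  · rw [Matrix.SpecialLinearGroup.diag2n_coe]
    ext k
    rw [mulVec_diagonal, ee_apply]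
    by_cases hk : k = i₀
    · rw [if_pos hk, hk, if_neg h01, if_neg h02]
      simp
    · rw [if_neg hk, mul_zero]
  · rw [Matrix.SpecialLinearGroup.diag2n_coe]
    ext k
    rw [vecMul_diagonal, Pi.smul_apply, ee_apply]
    by_cases hk : k = i₁
    · rw [if_pos hk, if_pos hk]
      simp [ht]
    · rw [if_neg hk]
      simp

theorem exists_dot_eq_one {φ : ι → F} (hφ : φ ≠ 0) : ∃ z : ι → F, φ ⬝ᵥ z = 1 := by
  obtain ⟨k, hk⟩ := Function.ne_iff.1 hφ
  refine ⟨(φ k)⁻¹ • ee k, ?_⟩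
  rw [dotProduct_smul, dot_ee, smul_eq_mul, inv_mul_cancel₀ hk]

/-- a class function is constant on the nontrivial transvections. -/
theorem chi_tv {χ : Matrix.SpecialLinearGroup ι F → ℂ}
    (hχ : IsClassFunction (Matrix.SpecialLinearGroup ι F) χ) {i₀ i₁ i₂ : ι} (h01 : i₀ ≠ i₁)
    (h02 : i₀ ≠ i₂) (h12 : i₁ ≠ i₂) {v φ : ι → F} (h : φ ⬝ᵥ v = 0) (hv : v ≠ 0) (hφ : φ ≠ 0) :
    χ (tv v φ) = χ (tv (ee i₀) (ee i₁ : ι → F)) := by
  obtain ⟨z, hz⟩ := exists_dot_eq_one hφ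
  have hz0 : z ≠ 0 := by
    rintro rfl
    simp at hz
  have hne : Projectivization.mk F v hv ≠ Projectivization.mk F z hz0 := by
    intro he
    rw [Projectivization.mk_eq_mk_iff] at he
    obtain ⟨a, ha⟩ := he
    rw [← ha, Units.smul_def, dotProduct_smul, hz] at h
    simp at h
  have hne' : Projectivization.mk F (ee i₀ : ι → F) (ee_ne_zero i₀)
      ≠ Projectivization.mk F (ee i₁ : ι → F) (ee_ne_zero i₁) := by
    intro he
    rw [Projectivization.mk_eq_mk_iff] at he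
    obtain ⟨a, ha⟩ := he
    have := congrFun ha i₀
    rw [Units.smul_def, Pi.smul_apply, ee_apply, if_neg h01, ee_apply, if_pos rfl, smul_zero] at this
    exact zero_ne_one this
  obtain ⟨g, hg1, hg2⟩ := (MulAction.is_two_pretransitive_iff
    (G := Matrix.SpecialLinearGroup ι F) (α := ℙ F (ι → F))).1 inferInstance hne hne'
  rw [Projectivization.smul_mk, Projectivization.mk_eq_mk_iff] at hg1 hg2
  obtain ⟨a, ha⟩ := hg1
  obtain ⟨b, hb⟩ := hg2
  rw [Matrix.SpecialLinearGroup.smul_def, Units.smul_def, Matrix.smul_eq_mulVec] at ha hb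
  have key := conj_tv g g⁻¹ (mul_inv_cancel g) h
  rw [← cf_conj hχ g g⁻¹ _ (mul_inv_cancel g), key, ← ha, tv_smul]
  set φ' : ι → F := (a : F) • (φ ᵥ* ((g⁻¹ : Matrix.SpecialLinearGroup ι F) : Matrix ι ι F)) with hφ'
  have hgg : ((g⁻¹ : Matrix.SpecialLinearGroup ι F) : Matrix ι ι F) * (g : Matrix ι ι F) = 1 := by
    have := sl_coe_congr (inv_mul_cancel g)
    rwa [Matrix.SpecialLinearGroup.coe_mul, Matrix.SpecialLinearGroup.coe_one] at this
  have e0 : φ' i₀ = 0 := by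
    have h1 : (a : F) • φ' i₀ = 0 := by
      rw [← dot_ee φ' i₀, ← dotProduct_smul, ha, hφ', smul_dotProduct, dotProduct_mulVec,
        vecMul_vecMul, hgg, vecMul_one, h, smul_zero]
    rcases smul_eq_zero.1 h1 with h2 | h2
    · exact absurd h2 a.ne_zero
    · exact h2
  have e1 : φ' i₁ ≠ 0 := by
    intro h0
    have h1 : (b : F) • φ' i₁ = (a : F) := by
      rw [← dot_ee φ' i₁, ← dotProduct_smul, hb, hφ', smul_dotProduct, dotProduct_mulVec,
        vecMul_vecMul, hgg, vecMul_one, hz, smul_eq_mul, mul_one]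
    rw [h0, smul_zero] at h1
    exact a.ne_zero h1.symm
  rw [chi_tv_step1 hχ h01 e0 e1, chi_tv_step2 hχ h01 h02 h12 e1]

end Cfsg.Agent.Lib.Helper39.SLmin
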