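import Cfsg.Agent.Lib.Helper39.SLmin.Sums

/-!
# The values of `∑_{u ∈ Q} χ (u h)` for `h` in the hyperplane radical (helper39)
-/

set_option autoImplicit false
set_option linter.unusedSectionVars false

namespace Cfsg.Agent.Lib.Helper39.SLmin

open Matrix Cfsg Module
open scoped ComplexConjugate

variable {F : Type*} [Field F] [Fintype F] [DecidableEq F] {ι : Type*} [Fintype ι] [DecidableEq ι]

theorem pr_dot_ee (i : ι) (φ : ι → F) : pr i φ ⬝ᵥ ee i = 0 := by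
  rw [dot_ee, pr_apply, if_pos rfl]

theorem sum_mult {B : Type*} [Fintype B] (g : Multiplicative B → ℂ) :
    ∑ γ, g γ = ∑ v : B, g (Multiplicative.ofAdd v) :=
  (Fintype.sum_equiv Multiplicative.ofAdd _ _ (fun _ => rfl)).symm

theorem card_fun : (Fintype.card (Multiplicative (ι → F)) : ℂ)
    = (Fintype.card F : ℂ) ^ Fintype.card ι := by
  rw [Fintype.card_multiplicative, Fintype.card_fun]
  push_cast
  rfl

section

variable {V : Type*} [AddCommGroup V] [Module ℂ V] [FiniteDimensional ℂ V]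
  (ρ : Representation ℂ (Matrix.SpecialLinearGroup ι F) V) {ψ : AddChar F ℂ} (hψ : ψ 1 ≠ 1)
  {x : ℂ} (hx : ∀ v φ : ι → F, φ ⬝ᵥ v = 0 → v ≠ 0 → φ ≠ 0 → ρ.character (tv v φ) = x)

include hx in
theorem chi_jH (j : ι) (v : ι → F) :
    ρ.character (tv (pr j v) (ee j)) = if pr j v = 0 then ρ.character 1 else x := by
  split_ifs with h
  · rw [h, tv_zero_left]
  · exact hx _ _ (ee_dot_pr j v) h (ee_ne_zero j)

include hx in
theorem chi_jP (i : ι) (φ : ι → F) :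
    ρ.character (tv (ee i) (pr i φ)) = if pr i φ = 0 then ρ.character 1 else x := by
  split_ifs with h
  · rw [h, tv_zero_right]
  · exact hx _ _ (pr_dot_ee i φ) (ee_ne_zero i) h

include hψ hx in
theorem sum_jH (j : ι) {η : ι → F} (hη : η j = 0) :
    ∑ γ : Multiplicative (ι → F), (Lc ψ η).toMonoidHom γ⁻¹ * ρ.character (jH j γ)
      = (Fintype.card F : ℂ) * (ρ.character 1 - x)
        + if η = 0 then (Fintype.card F : ℂ) ^ Fintype.card ι * x else 0 := by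
  rw [sum_mult]
  have h1 : ∀ v : ι → F, (Lc ψ η).toMonoidHom (Multiplicative.ofAdd v)⁻¹
      * ρ.character (jH j (Multiplicative.ofAdd v))
      = ψ ((-η) ⬝ᵥ v) * (if pr j v = 0 then ρ.character 1 else x) := by
    intro v
    rw [jH_apply, toAdd_ofAdd, chi_jH ρ hx, AddChar.toMonoidHom_apply, toAdd_inv, toAdd_ofAdd,
      Lc_apply, dotProduct_neg, neg_dotProduct]
  rw [Finset.sum_congr rfl (fun v _ => h1 v), sum_two_val hψ j (by rw [Pi.neg_apply, hη, neg_zero])]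
  simp only [neg_eq_zero]

include hψ hx in
theorem sum_jP (i : ι) :
    ∑ φ : ι → F, ρ.character (tv (ee i) (pr i φ))
      = (Fintype.card F : ℂ) * (ρ.character 1 - x) + (Fintype.card F : ℂ) ^ Fintype.card ι * x := by
  have h := sum_two_val hψ i (η := (0 : ι → F)) rfl (ρ.character 1) x
  rw [if_pos rfl] at h
  rw [← h]
  apply Finset.sum_congr rfl
  intro φ _
  rw [chi_jP ρ hx, zero_dotProduct, AddChar.map_zero_eq_one, one_mul]

variable (hm : (Fintype.card F : ℂ) * (ρ.character 1 - x) = (Fintype.card F : ℂ) ^ Fintype.card ι)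

include hψ hx hm in
theorem finrank_eig_one (j : ι) {η : ι → F} (hη : η j = 0) (h0 : η ≠ 0) :
    finrank ℂ (eig ρ (jH j) (Lc ψ η).toMonoidHom) = 1 := by
  have h := finrank_eig ρ (jH j) (Lc ψ η).toMonoidHom
  rw [sum_jH ρ hψ hx j hη, if_neg h0, add_zero, hm, card_fun, inv_mul_cancel₀] at h
  · exact_mod_cast h
  · apply pow_ne_zero
    exact_mod_cast Fintype.card_ne_zero

variable {i₀ j₀ : ι} (hij : i₀ ≠ j₀)
  (hc : 5 ≤ Fintype.card ι ∨ (Fintype.card ι = 4 ∧ ∃ lam : F, lam ≠ 0 ∧ lam ^ 2 ≠ 1) ∨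
      (Fintype.card ι = 3 ∧ ∃ d : F, d ≠ 0 ∧ d ^ 3 ≠ 1))

include hψ hx hm hij hc in
theorem fix_eig {η : ι → F} (hη0 : η i₀ = 0) (hηj : η j₀ = 0) (h0 : η ≠ 0) {φ : ι → F}
    (hφ : φ i₀ = 0) (y : V) (hy : y ∈ eig ρ (jH j₀) (Lc ψ η).toMonoidHom) :
    ρ (tv (ee i₀) φ) y = y := by
  obtain ⟨x₀, hx0, -, hsp, hN⟩ := exists_line ρ (jH j₀) (Lc ψ η).toMonoidHom
    (finrank_eig_one ρ hψ hx hm j₀ hηj h0)
  obtain ⟨c, rfl⟩ := hsp y hy
  rw [map_smul, K_all ρ ψ hij hη0 hηj hx0 hN hc hφ]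

/-- the function `f`. -/
noncomputable def fH (χ : Matrix.SpecialLinearGroup ι F → ℂ) (i₀ j₀ : ι) (v : ι → F) : ℂ :=
  ∑ φ : ι → F, χ (tv (ee i₀) (pr i₀ φ) * tv (pr j₀ v) (ee j₀))

include hψ hx hm hij hc in
theorem coef_fH {η : ι → F} (hη0 : η i₀ = 0) (hηj : η j₀ = 0) (h0 : η ≠ 0) :
    ∑ v : ι → F, fH ρ.character i₀ j₀ v * conj (ψ (η ⬝ᵥ v))
      = (Fintype.card F : ℂ) ^ Fintype.card ι * (Fintype.card F : ℂ) ^ Fintype.card ι := by
  unfold fH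
  simp_rw [Finset.sum_mul]
  rw [Finset.sum_comm]
  have h1 : ∀ φ : ι → F, ∑ v : ι → F,
      ρ.character (tv (ee i₀) (pr i₀ φ) * tv (pr j₀ v) (ee j₀)) * conj (ψ (η ⬝ᵥ v))
      = (Fintype.card F : ℂ) ^ Fintype.card ι := by
    intro φ
    have h2 := sum_of_fix ρ (jH j₀) (Lc ψ η).toMonoidHom (tv (ee i₀) (pr i₀ φ))
      (fun y hy => fix_eig ρ hψ hx hm hij hc hη0 hηj h0 (by rw [pr_apply, if_pos rfl]) y hy)
    rw [sum_jH ρ hψ hx j₀ hηj, if_neg h0, add_zero, hm, sum_mult] at h2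
    rw [← h2]
    apply Finset.sum_congr rfl
    intro v _
    rw [jH_apply, toAdd_ofAdd, AddChar.toMonoidHom_apply, toAdd_inv, toAdd_ofAdd, Lc_apply,
      dotProduct_neg, AddChar.map_neg_eq_conj, mul_comm]
  rw [Finset.sum_congr rfl (fun φ _ => h1 φ)]
  simp

end

theorem sum_pr_pr {i₀ j₀ : ι} (hij : i₀ ≠ j₀) (g : (ι → F) → ℂ) :
    ∑ T, g (pr i₀ (pr j₀ T))
      = (Fintype.card F : ℂ) ^ 2 * ∑ T : ι → F, if T i₀ = 0 ∧ T j₀ = 0 then g T else 0 := by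
  rw [sum_pr j₀ (fun T => g (pr i₀ T))]
  have h1 : ∀ T : ι → F, (if T j₀ = 0 then g (pr i₀ T) else 0)
      = (fun T' : ι → F => if T' j₀ = 0 then g T' else 0) (pr i₀ T) := by
    intro T
    have : pr i₀ T j₀ = T j₀ := by rw [pr_apply, if_neg hij.symm]
    simp only [this]
  rw [Finset.sum_congr rfl (fun T _ => h1 T),
    sum_pr i₀ (fun T' : ι → F => if T' j₀ = 0 then g T' else 0), ← mul_assoc, ← pow_two]
  congr 1
  apply Finset.sum_congr rfl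
  intro T _
  by_cases h1 : T i₀ = 0 <;> by_cases h2 : T j₀ = 0 <;> simp [h1, h2]

theorem fH_period_j (χ : Matrix.SpecialLinearGroup ι F → ℂ) (i₀ j₀ : ι) (a : F) (v : ι → F) :
    fH χ i₀ j₀ (v + a • ee j₀) = fH χ i₀ j₀ v := by
  unfold fH
  rw [pr_add_smul_ee]

theorem fH_period_i (χ : Matrix.SpecialLinearGroup ι F → ℂ) {i₀ j₀ : ι} (hij : i₀ ≠ j₀) (a : F)
    (v : ι → F) : fH χ i₀ j₀ (v + a • ee i₀) = fH χ i₀ j₀ v := by
  unfold fH
  conv_rhs => rw [← Equiv.sum_comp (Equiv.addRight (a • (ee j₀ : ι → F)))]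
  apply Finset.sum_congr rfl
  intro φ _
  have e1 : (Equiv.addRight (a • (ee j₀ : ι → F))) φ = φ + a • ee j₀ := rfl
  have e2 : pr j₀ (a • (ee i₀ : ι → F)) = a • ee i₀ := by
    apply pr_of_zero
    rw [Pi.smul_apply, ee_apply, if_neg hij.symm, smul_zero]
  have e3 : pr i₀ (a • (ee j₀ : ι → F)) = a • ee j₀ := by
    apply pr_of_zero
    rw [Pi.smul_apply, ee_apply, if_neg hij, smul_zero]
  have e4 : (ee j₀ : ι → F) ⬝ᵥ (a • ee i₀) = 0 := by
    rw [← e2]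
    exact ee_dot_pr _ _
  have e5 : (a • (ee j₀ : ι → F)) ⬝ᵥ ee i₀ = 0 := by
    rw [← e3]
    exact pr_dot_ee _ _
  rw [e1, pr_add, pr_add, e2, e3, add_comm (pr j₀ v), ← tv_mul_left e4 (ee_dot_pr _ _),
    ← tv_mul_right (pr_dot_ee _ _) e5, tv_smul, mul_assoc]

section

variable {V : Type*} [AddCommGroup V] [Module ℂ V] [FiniteDimensional ℂ V]
  (ρ : Representation ℂ (Matrix.SpecialLinearGroup ι F) V) {ψ : AddChar F ℂ} (hψ : ψ 1 ≠ 1)
  {x : ℂ} (hx : ∀ v φ : ι → F, φ ⬝ᵥ v = 0 → v ≠ 0 → φ ≠ 0 → ρ.character (tv v φ) = x)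
  (hm : (Fintype.card F : ℂ) * (ρ.character 1 - x) = (Fintype.card F : ℂ) ^ Fintype.card ι)
  {i₀ j₀ : ι} (hij : i₀ ≠ j₀)
  (hc : 5 ≤ Fintype.card ι ∨ (Fintype.card ι = 4 ∧ ∃ lam : F, lam ≠ 0 ∧ lam ^ 2 ≠ 1) ∨
      (Fintype.card ι = 3 ∧ ∃ d : F, d ≠ 0 ∧ d ^ 3 ≠ 1))

include hψ hx hm hij hc in
theorem gMult_fH {T : ι → F} (hT : T ≠ 0) :
    SUDeg.gMult (fH ρ.character i₀ j₀) (Lc ψ T)
      = if T i₀ = 0 ∧ T j₀ = 0 then (Fintype.card F : ℂ) ^ Fintype.card ι else 0 := by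
  have hq : ((Fintype.card F : ℂ) ^ Fintype.card ι) ≠ 0 := by
    apply pow_ne_zero
    exact_mod_cast Fintype.card_ne_zero
  unfold SUDeg.gMult
  simp only [Lc_apply]
  by_cases h1 : T i₀ = 0
  · by_cases h2 : T j₀ = 0
    · rw [if_pos ⟨h1, h2⟩, coef_fH ρ hψ hx hm hij hc h1 h2 hT, Fintype.card_fun]
      push_cast
      field_simp
    · rw [if_neg (fun h => h2 h.2), sum_eq_zero_of_period _ ((T j₀)⁻¹ • ee j₀) T
        (fun v => fH_period_j _ _ _ _ v), mul_zero]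
      rw [dotProduct_smul, dot_ee, smul_eq_mul, inv_mul_cancel₀ h2]
      exact hψ
  · rw [if_neg (fun h => h1 h.1), sum_eq_zero_of_period _ ((T i₀)⁻¹ • ee i₀) T
      (fun v => fH_period_i _ hij _ v), mul_zero]
    rw [dotProduct_smul, dot_ee, smul_eq_mul, inv_mul_cancel₀ h1]
    exact hψ

include hψ hx hm hij hc in
theorem fH_value {k : ι} (hk0 : k ≠ i₀) (hkj : k ≠ j₀) {v : ι → F} (hv : v k ≠ 0) :
    (Fintype.card F : ℂ) ^ 2 * (fH ρ.character i₀ j₀ 0 - fH ρ.character i₀ j₀ v)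
      = (Fintype.card F : ℂ) ^ Fintype.card ι * (Fintype.card F : ℂ) ^ Fintype.card ι := by
  have hL : ∀ z : ι → F, z ≠ 0 → ∑ T, Lc ψ T z = 0 := fun z hz => sum_psi_dot' hψ hz
  have e0 := SUDeg.gMult_inversion (fH ρ.character i₀ j₀) (Lc ψ) hL 0
  have ev := SUDeg.gMult_inversion (fH ρ.character i₀ j₀) (Lc ψ) hL v
  rw [← e0, ← ev, ← Finset.sum_sub_distrib]
  have h1 : ∀ T : ι → F, SUDeg.gMult (fH ρ.character i₀ j₀) (Lc ψ T) * Lc ψ T 0
      - SUDeg.gMult (fH ρ.character i₀ j₀) (Lc ψ T) * Lc ψ T v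
      = if T i₀ = 0 ∧ T j₀ = 0 then
          (fun T' : ι → F => (Fintype.card F : ℂ) ^ Fintype.card ι * (1 - ψ (T' ⬝ᵥ v))) T else 0 := by
    intro T
    rw [Lc_apply, Lc_apply, dotProduct_zero, AddChar.map_zero_eq_one]
    by_cases hT : T = 0
    · subst hT
      simp
    · rw [gMult_fH ρ hψ hx hm hij hc hT]
      split_ifs <;> ring
  rw [Finset.sum_congr rfl (fun T _ => h1 T), ← sum_pr_pr hij, ← Finset.mul_sum,
    Finset.sum_sub_distrib]
  congr 1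
  have h2 : ∀ T : ι → F, ψ (pr i₀ (pr j₀ T) ⬝ᵥ v) = ψ (T ⬝ᵥ pr j₀ (pr i₀ v)) := by
    intro T
    rw [dot_pr_comm, dot_pr_comm]
  rw [Finset.sum_congr rfl (fun T _ => h2 T), sum_psi_dot' hψ]
  · simp
  · intro h
    have := congrFun h k
    rw [pr_apply, if_neg hkj, pr_apply, if_neg hk0] at this
    exact hv this

end

end Cfsg.Agent.Lib.Helper39.SLmin
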