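import Cfsg.Agent.Lib.Helper39.SLmin.Conj
import Cfsg.Agent.Lib.Helper39.SLmin.Basic

/-!
# The eigenlines of the hyperplane radical are fixed by the point radical (helper39)
-/

set_option autoImplicit false
set_option linter.unusedSectionVars false

namespace Cfsg.Agent.Lib.Helper39.SLmin

open Matrix Cfsg Module

variable {F : Type*} [Field F] {ι : Type*} [Fintype ι] [DecidableEq ι]

/-- zero the `j₀` coordinate. -/
def pr (j₀ : ι) (v : ι → F) : ι → F := Function.update v j₀ 0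

theorem pr_apply (j₀ : ι) (v : ι → F) (k : ι) : pr j₀ v k = if k = j₀ then 0 else v k := by
  unfold pr
  rw [Function.update_apply]

theorem pr_add (j₀ : ι) (v w : ι → F) : pr j₀ (v + w) = pr j₀ v + pr j₀ w := by
  ext k
  rw [Pi.add_apply, pr_apply, pr_apply, pr_apply]
  split_ifs <;> simp

theorem pr_zero (j₀ : ι) : pr j₀ (0 : ι → F) = 0 := by
  ext k
  rw [pr_apply]
  simp

theorem ee_dot_pr (j₀ : ι) (v : ι → F) : (ee j₀ : ι → F) ⬝ᵥ pr j₀ v = 0 := by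
  rw [ee_dot, pr_apply, if_pos rfl]

theorem pr_of_zero {j₀ : ι} {v : ι → F} (h : v j₀ = 0) : pr j₀ v = v := by
  ext k
  rw [pr_apply]
  split_ifs with hk
  · rw [hk, h]
  · rfl

theorem dot_pr {j₀ : ι} {η : ι → F} (h : η j₀ = 0) (v : ι → F) : η ⬝ᵥ pr j₀ v = η ⬝ᵥ v := by
  unfold dotProduct
  apply Finset.sum_congr rfl
  intro k _
  rw [pr_apply]
  split_ifs with hk
  · rw [hk, h]
    simp
  · rfl

/-- the hyperplane radical, parametrised (redundantly) by all vectors. -/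
noncomputable def jH (j₀ : ι) : Multiplicative (ι → F) →* Matrix.SpecialLinearGroup ι F where
  toFun v := tv (pr j₀ (Multiplicative.toAdd v)) (ee j₀)
  map_one' := by
    rw [toAdd_one, pr_zero, tv_zero_left]
  map_mul' := by
    intro a b
    rw [toAdd_mul, pr_add, tv_mul_left (ee_dot_pr _ _) (ee_dot_pr _ _)]

theorem jH_apply (j₀ : ι) (v : Multiplicative (ι → F)) :
    jH j₀ v = tv (pr j₀ (Multiplicative.toAdd v)) (ee j₀) := rfl

/-- the additive character `v ↦ ψ (η · v)`. -/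
noncomputable def Lc (ψ : AddChar F ℂ) (η : ι → F) : AddChar (ι → F) ℂ where
  toFun v := ψ (η ⬝ᵥ v)
  map_zero_eq_one' := by simp
  map_add_eq_mul' := by
    intro a b
    rw [dotProduct_add, AddChar.map_add_eq_mul]

theorem Lc_apply (ψ : AddChar F ℂ) (η v : ι → F) : Lc ψ η v = ψ (η ⬝ᵥ v) := rfl

/-- the normalising condition. -/
def Nrm (ψ : AddChar F ℂ) (η : ι → F) (j₀ : ι) (g : Matrix.SpecialLinearGroup ι F) : Prop :=
  ∀ γ, ∃ γ', g⁻¹ * jH j₀ γ * g = jH j₀ γ' ∧ (Lc ψ η).toMonoidHom γ' = (Lc ψ η).toMonoidHom γ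

theorem nrm_of (ψ : AddChar F ℂ) {η : ι → F} {j₀ : ι} (hηj : η j₀ = 0)
    (l l' : Matrix.SpecialLinearGroup ι F) (hl : l * l' = 1) (b : F)
    (h1 : (ee j₀ : ι → F) ᵥ* (l : Matrix ι ι F) = b • ee j₀)
    (h2 : b • (η ᵥ* (l' : Matrix ι ι F)) = η) : Nrm ψ η j₀ l := by
  intro γ
  have hl' : l' * l = 1 := by
    rw [mul_eq_one_iff_eq_inv] at hl
    rw [hl, mul_inv_cancel]
  have hinv : l⁻¹ = l' := inv_eq_of_mul_eq_one_right hl
  set w := pr j₀ (Multiplicative.toAdd γ) with hw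
  have key := conj_tv l' l hl' (ee_dot_pr j₀ (Multiplicative.toAdd γ))
  rw [← hw, h1, ← tv_smul] at key
  have hz : (b • ((l' : Matrix ι ι F) *ᵥ w)) j₀ = 0 := by
    have hll : (l : Matrix ι ι F) * (l' : Matrix ι ι F) = 1 := by
      have := sl_coe_congr hl
      rwa [Matrix.SpecialLinearGroup.coe_mul, Matrix.SpecialLinearGroup.coe_one] at this
    rw [← ee_dot (b • ((l' : Matrix ι ι F) *ᵥ w)) j₀, dotProduct_smul, ← smul_dotProduct, ← h1,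
      dotProduct_mulVec, vecMul_vecMul, hll, vecMul_one, hw, ee_dot_pr]
  refine ⟨Multiplicative.ofAdd (b • ((l' : Matrix ι ι F) *ᵥ w)), ?_, ?_⟩
  · rw [hinv, jH_apply, jH_apply, toAdd_ofAdd, pr_of_zero hz, ← hw, key]
  · rw [AddChar.toMonoidHom_apply, AddChar.toMonoidHom_apply, toAdd_ofAdd, Lc_apply, Lc_apply,
      dotProduct_smul, dotProduct_mulVec, ← smul_dotProduct, h2, hw, dot_pr hηj]

section K

variable {V : Type*} [AddCommGroup V] [Module ℂ V] [FiniteDimensional ℂ V]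
  (ρ : Representation ℂ (Matrix.SpecialLinearGroup ι F) V) (ψ : AddChar F ℂ) {η : ι → F}
  {i₀ j₀ : ι} (hij : i₀ ≠ j₀) (hη0 : η i₀ = 0) (hηj : η j₀ = 0) {x₀ : V} (hx0 : x₀ ≠ 0)
  (hN : ∀ g, Nrm ψ η j₀ g → ∃ κ : ℂ, ρ g x₀ = κ • x₀)

include hij hη0 hηj in
theorem nrm_tv_i0 {φ : ι → F} (hφ : φ i₀ = 0) : Nrm ψ η j₀ (tv (ee i₀) φ) := by
  have h0 : φ ⬝ᵥ ee i₀ = 0 := by rw [dot_ee, hφ]
  have h0' : (-φ) ⬝ᵥ ee i₀ = 0 := by rw [neg_dotProduct, h0, neg_zero]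
  apply nrm_of ψ hηj _ (tv (ee i₀) (-φ)) (by rw [← tv_inv h0, mul_inv_cancel]) 1
  · rw [vecMul_tv h0, ee_dot, ee_apply, if_neg hij.symm, zero_smul, add_zero, one_smul]
  · rw [vecMul_tv h0', dot_ee, hη0, zero_smul, add_zero, one_smul]

theorem K_add {φ φ' : ι → F} (hφ : φ i₀ = 0) (hφ' : φ' i₀ = 0)
    (h : ρ (tv (ee i₀) φ) x₀ = x₀) (h' : ρ (tv (ee i₀) φ') x₀ = x₀) :
    ρ (tv (ee i₀) (φ + φ')) x₀ = x₀ := by
  rw [← tv_mul_right (by rw [dot_ee, hφ]) (by rw [dot_ee, hφ']), map_mul, Module.End.mul_apply, h', h]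

include hij hη0 hηj hx0 hN in
theorem K_levi (l l' : Matrix.SpecialLinearGroup ι F) (hl : l * l' = 1) (hn : Nrm ψ η j₀ l) (a : F)
    (ha : (l : Matrix ι ι F) *ᵥ ee i₀ = a • ee i₀) {φ' : ι → F} (hφ' : φ' i₀ = 0) :
    ρ (tv (ee i₀) (a • (φ' ᵥ* (l' : Matrix ι ι F)) - φ')) x₀ = x₀ := by
  have h0 : φ' ⬝ᵥ ee i₀ = 0 := by rw [dot_ee, hφ']
  obtain ⟨κ, hκ⟩ := hN l hn
  obtain ⟨α, hα⟩ := hN _ (nrm_tv_i0 ψ hij hη0 hηj hφ')
  have h1 := comm_fix ρ hx0 hκ hα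
  have hinv : l⁻¹ = l' := inv_eq_of_mul_eq_one_right hl
  have key := conj_tv l l' hl h0
  rw [ha, tv_smul] at key
  have hll : (l' : Matrix ι ι F) * (l : Matrix ι ι F) = 1 := by
    have hl' : l' * l = 1 := by
      rw [mul_eq_one_iff_eq_inv] at hl
      rw [hl, mul_inv_cancel]
    have := sl_coe_congr hl'
    rwa [Matrix.SpecialLinearGroup.coe_mul, Matrix.SpecialLinearGroup.coe_one] at this
  have h2 : (a • (φ' ᵥ* (l' : Matrix ι ι F))) ⬝ᵥ ee i₀ = 0 := by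
    rw [smul_dotProduct, ← dotProduct_smul, ← ha, dotProduct_mulVec, vecMul_vecMul, hll, vecMul_one, h0]
  have h3 : (tv (ee i₀) φ')⁻¹ * l * tv (ee i₀) φ' * l⁻¹
      = tv (ee i₀) (a • (φ' ᵥ* (l' : Matrix ι ι F)) - φ') := by
    rw [hinv, mul_assoc, mul_assoc, ← mul_assoc l, key, tv_inv h0,
      tv_mul_right (by rw [neg_dotProduct, h0, neg_zero]) h2]
    congr 1
    abel
  rw [← h3]
  exact h1

include hij hη0 hηj hx0 hN in
/-- transvection part. -/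
theorem K_transv {u₀ f : ι → F} (hu : u₀ ≠ 0) (hu0 : u₀ i₀ = 0) (huj : u₀ j₀ = 0)
    (hηu : η ⬝ᵥ u₀ = 0) (hf0 : f i₀ = 0) (hfu : f ⬝ᵥ u₀ = 0) :
    ρ (tv (ee i₀) f) x₀ = x₀ := by
  obtain ⟨k, hk⟩ := Function.ne_iff.1 hu
  have hk' : u₀ k ≠ 0 := hk
  have hki : k ≠ i₀ := by
    rintro rfl
    exact hk' hu0
  have hfu' : (-f) ⬝ᵥ u₀ = 0 := by rw [neg_dotProduct, hfu, neg_zero]
  have hl : tv u₀ f * tv u₀ (-f) = 1 := by rw [← tv_inv hfu, mul_inv_cancel]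
  have hn : Nrm ψ η j₀ (tv u₀ f) := by
    apply nrm_of ψ hηj _ _ hl 1
    · rw [vecMul_tv hfu, ee_dot, huj, zero_smul, add_zero, one_smul]
    · rw [vecMul_tv hfu', hηu, zero_smul, add_zero, one_smul]
  have ha : (tv u₀ f : Matrix ι ι F) *ᵥ ee i₀ = (1 : F) • ee i₀ := by
    rw [tv_mulVec hfu, dot_ee, hf0, zero_smul, add_zero, one_smul]
  have hφ' : (-(u₀ k)⁻¹ • (ee k : ι → F)) i₀ = 0 := by
    rw [Pi.smul_apply, ee_apply, if_neg hki.symm, smul_zero]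
  have := K_levi ρ ψ hij hη0 hηj hx0 hN _ _ hl hn 1 ha hφ'
  rw [vecMul_tv hfu', smul_dotProduct, ee_dot, one_smul, add_sub_cancel_left] at this
  have e : (-(u₀ k)⁻¹ • u₀ k) • -f = f := by
    rw [smul_eq_mul, neg_mul, inv_mul_cancel₀ hk']
    simp
  rwa [e] at this

end K

end Cfsg.Agent.Lib.Helper39.SLmin
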