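import Cfsg.Agent.Lib.Helper39.SLmin.Line

/-!
# The eigenlines of the hyperplane radical are fixed by the point radical, II (helper39)
-/

set_option autoImplicit false
set_option linter.unusedSectionVars false

namespace Cfsg.Agent.Lib.Helper39.SLmin

open Matrix Cfsg Module

variable {F : Type*} [Field F] {ι : Type*} [Fintype ι] [DecidableEq ι]

/-- the dilatation matrix `1 + c v ⊗ ξ`. -/
def dlM (v ξ : ι → F) (c : F) : Matrix ι ι F := 1 + vecMulVec (c • v) ξ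

theorem det_dlM (v ξ : ι → F) (c : F) : (dlM v ξ c).det = 1 + c * (ξ ⬝ᵥ v) := by
  unfold dlM
  rw [det_one_add_vmv, dotProduct_smul, smul_eq_mul]

theorem dlM_mulVec (v ξ : ι → F) (c : F) (w : ι → F) :
    dlM v ξ c *ᵥ w = w + (c * (ξ ⬝ᵥ w)) • v := by
  unfold dlM
  rw [add_mulVec, one_mulVec, vecMulVec_mulVec]
  ext i
  simp
  ring

theorem vecMul_dlM (v ξ : ι → F) (c : F) (η : ι → F) :
    η ᵥ* dlM v ξ c = η + (c * (η ⬝ᵥ v)) • ξ := by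
  unfold dlM
  rw [vecMul_add, vecMul_one, vecMul_vecMulVec, dotProduct_smul, smul_eq_mul]

theorem dlM_zero (v ξ : ι → F) : dlM v ξ 0 = 1 := by
  unfold dlM
  simp

theorem dlM_mul {v ξ : ι → F} (h : ξ ⬝ᵥ v = 1) (c c' : F) :
    dlM v ξ c * dlM v ξ c' = dlM v ξ (c + c' + c * c') := by
  unfold dlM
  rw [add_mul, mul_add, mul_add, vecMulVec_mul_vecMulVec, dotProduct_smul, h]
  simp only [one_mul, mul_one, smul_vecMulVec, vecMulVec_smul, smul_eq_mul, add_smul, mul_smul,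
    add_vecMulVec]
  rw [smul_comm c' c]
  abel

theorem lam_arith {lam : F} (h : lam ≠ 0) : (lam - 1) + (lam⁻¹ - 1) + (lam - 1) * (lam⁻¹ - 1) = 0 := by
  field_simp
  ring

theorem lam_arith' {lam : F} (h : lam ≠ 0) : (lam⁻¹ - 1) + (lam - 1) + (lam⁻¹ - 1) * (lam - 1) = 0 := by
  field_simp
  ring

/-- the dilatation element of `SL`. -/
def dlS (i₀ : ι) (u₀ ξ : ι → F) (hξ : ξ ⬝ᵥ u₀ = 1) (lam : F) (h : lam ≠ 0) :
    Matrix.SpecialLinearGroup ι F :=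
  ⟨dlM u₀ ξ (lam - 1) * dlM (ee i₀) (ee i₀) (lam⁻¹ - 1), by
    rw [det_mul, det_dlM, det_dlM, hξ, ee_dot, ee_apply, if_pos rfl]
    field_simp
    ring⟩

/-- its inverse. -/
def dlS' (i₀ : ι) (u₀ ξ : ι → F) (hξ : ξ ⬝ᵥ u₀ = 1) (lam : F) (h : lam ≠ 0) :
    Matrix.SpecialLinearGroup ι F :=
  ⟨dlM (ee i₀) (ee i₀) (lam - 1) * dlM u₀ ξ (lam⁻¹ - 1), by
    rw [det_mul, det_dlM, det_dlM, hξ, ee_dot, ee_apply, if_pos rfl]
    field_simp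
    ring⟩

theorem dlS_coe (i₀ : ι) (u₀ ξ : ι → F) (hξ : ξ ⬝ᵥ u₀ = 1) (lam : F) (h : lam ≠ 0) :
    (dlS i₀ u₀ ξ hξ lam h : Matrix ι ι F)
      = dlM u₀ ξ (lam - 1) * dlM (ee i₀) (ee i₀) (lam⁻¹ - 1) := rfl

theorem dlS'_coe (i₀ : ι) (u₀ ξ : ι → F) (hξ : ξ ⬝ᵥ u₀ = 1) (lam : F) (h : lam ≠ 0) :
    (dlS' i₀ u₀ ξ hξ lam h : Matrix ι ι F)
      = dlM (ee i₀) (ee i₀) (lam - 1) * dlM u₀ ξ (lam⁻¹ - 1) := rfl

theorem dlS_mul (i₀ : ι) (u₀ ξ : ι → F) (hξ : ξ ⬝ᵥ u₀ = 1) (lam : F) (h : lam ≠ 0) :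
    dlS i₀ u₀ ξ hξ lam h * dlS' i₀ u₀ ξ hξ lam h = 1 := by
  apply sl_ext
  have he : (ee i₀ : ι → F) ⬝ᵥ ee i₀ = 1 := by rw [ee_dot, ee_apply, if_pos rfl]
  rw [Matrix.SpecialLinearGroup.coe_mul, dlS_coe, dlS'_coe, Matrix.SpecialLinearGroup.coe_one,
    Matrix.mul_assoc, ← Matrix.mul_assoc (dlM (ee i₀) (ee i₀) (lam⁻¹ - 1)), dlM_mul he,
    lam_arith' h, dlM_zero, Matrix.one_mul, dlM_mul hξ, lam_arith h, dlM_zero]

/-- the diagonal element for `n = 3`. -/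
def dgS (i₀ : ι) (h3 : Fintype.card ι = 3) (d : F) (hd : d ≠ 0) : Matrix.SpecialLinearGroup ι F :=
  ⟨diagonal (fun k => if k = i₀ then (d ^ 2)⁻¹ else d), by
    rw [det_diagonal, ← Finset.mul_prod_erase Finset.univ _ (Finset.mem_univ i₀), if_pos rfl]
    have : ∀ k ∈ Finset.univ.erase i₀, (if k = i₀ then (d ^ 2)⁻¹ else d) = d := by
      intro k hk
      rw [if_neg (Finset.ne_of_mem_erase hk)]
    rw [Finset.prod_congr rfl this, Finset.prod_const, Finset.card_erase_of_mem (Finset.mem_univ _),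
      Finset.card_univ, h3]
    field_simp⟩

theorem dgS_coe (i₀ : ι) (h3 : Fintype.card ι = 3) (d : F) (hd : d ≠ 0) :
    (dgS i₀ h3 d hd : Matrix ι ι F) = diagonal (fun k => if k = i₀ then (d ^ 2)⁻¹ else d) := rfl

theorem dgS_mul (i₀ : ι) (h3 : Fintype.card ι = 3) (d : F) (hd : d ≠ 0) :
    dgS i₀ h3 d hd * dgS i₀ h3 d⁻¹ (inv_ne_zero hd) = 1 := by
  apply sl_ext
  rw [Matrix.SpecialLinearGroup.coe_mul, dgS_coe, dgS_coe, diagonal_mul_diagonal,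
    Matrix.SpecialLinearGroup.coe_one, ← diagonal_one]
  congr 1
  ext k
  by_cases hk : k = i₀
  · simp only [if_pos hk]
    field_simp
  · simp only [if_neg hk]
    field_simp

theorem exists_ker3 (h : 3 < Fintype.card ι) (a b c : ι → F) :
    ∃ u : ι → F, u ≠ 0 ∧ a ⬝ᵥ u = 0 ∧ b ⬝ᵥ u = 0 ∧ c ⬝ᵥ u = 0 := by
  have h1 : LinearMap.ker (Matrix.mulVecLin (Matrix.of ![a, b, c])) ≠ ⊥ := by
    apply LinearMap.ker_ne_bot_of_finrank_lt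
    simpa using h
  obtain ⟨u, hu, hu0⟩ := Submodule.exists_mem_ne_zero_of_ne_bot h1
  rw [LinearMap.mem_ker, Matrix.mulVecLin_apply] at hu
  refine ⟨u, hu0, ?_, ?_, ?_⟩
  · simpa [Matrix.mulVec] using congrFun hu 0
  · simpa [Matrix.mulVec] using congrFun hu 1
  · simpa [Matrix.mulVec] using congrFun hu 2

theorem exists_ker4 (h : 4 < Fintype.card ι) (a b c d : ι → F) :
    ∃ u : ι → F, u ≠ 0 ∧ a ⬝ᵥ u = 0 ∧ b ⬝ᵥ u = 0 ∧ c ⬝ᵥ u = 0 ∧ d ⬝ᵥ u = 0 := by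
  have h1 : LinearMap.ker (Matrix.mulVecLin (Matrix.of ![a, b, c, d])) ≠ ⊥ := by
    apply LinearMap.ker_ne_bot_of_finrank_lt
    simpa using h
  obtain ⟨u, hu, hu0⟩ := Submodule.exists_mem_ne_zero_of_ne_bot h1
  rw [LinearMap.mem_ker, Matrix.mulVecLin_apply] at hu
  refine ⟨u, hu0, ?_, ?_, ?_, ?_⟩
  · simpa [Matrix.mulVec] using congrFun hu 0
  · simpa [Matrix.mulVec] using congrFun hu 1
  · simpa [Matrix.mulVec] using congrFun hu 2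
  · simpa [Matrix.mulVec] using congrFun hu 3

section K

variable {V : Type*} [AddCommGroup V] [Module ℂ V] [FiniteDimensional ℂ V]
  (ρ : Representation ℂ (Matrix.SpecialLinearGroup ι F) V) (ψ : AddChar F ℂ) {η : ι → F}
  {i₀ j₀ : ι} (hij : i₀ ≠ j₀) (hη0 : η i₀ = 0) (hηj : η j₀ = 0) {x₀ : V} (hx0 : x₀ ≠ 0)
  (hN : ∀ g, Nrm ψ η j₀ g → ∃ κ : ℂ, ρ g x₀ = κ • x₀)

include hij hη0 hηj hx0 hN in
theorem K_dil {u₀ ξ : ι → F} (hu0 : u₀ i₀ = 0) (huj : u₀ j₀ = 0) (hηu : η ⬝ᵥ u₀ = 0)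
    (hξ : ξ ⬝ᵥ u₀ = 1) (hξ0 : ξ i₀ = 0) {lam : F} (h : lam ≠ 0) (h2 : lam ^ 2 ≠ 1) (c : F) :
    ρ (tv (ee i₀) (c • ξ)) x₀ = x₀ := by
  have hl := dlS_mul i₀ u₀ ξ hξ lam h
  have hn : Nrm ψ η j₀ (dlS i₀ u₀ ξ hξ lam h) := by
    apply nrm_of ψ hηj _ _ hl 1
    · have e1 : (ee j₀ : ι → F) ᵥ* dlM u₀ ξ (lam - 1) = ee j₀ := by
        rw [vecMul_dlM, ee_dot, huj, mul_zero, zero_smul, add_zero]
      rw [dlS_coe, ← vecMul_vecMul, e1,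
        vecMul_dlM, ee_dot, ee_apply, if_neg hij.symm, mul_zero, zero_smul, add_zero, one_smul]
    · have e1 : η ᵥ* dlM (ee i₀) (ee i₀) (lam - 1) = η := by
        rw [vecMul_dlM, dot_ee, hη0, mul_zero, zero_smul, add_zero]
      rw [dlS'_coe, ← vecMul_vecMul, e1,
        vecMul_dlM, hηu, mul_zero, zero_smul, add_zero, one_smul]
  have ha : (dlS i₀ u₀ ξ hξ lam h : Matrix ι ι F) *ᵥ ee i₀ = lam⁻¹ • ee i₀ := by
    have e1 : dlM (ee i₀) (ee i₀) (lam⁻¹ - 1) *ᵥ (ee i₀ : ι → F) = lam⁻¹ • ee i₀ := by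
      rw [dlM_mulVec, ee_dot, ee_apply, if_pos rfl, mul_one]
      conv_lhs => rw [← one_smul F (ee i₀ : ι → F), smul_smul, ← add_smul]
      congr 1
      ring
    rw [dlS_coe, ← mulVec_mulVec, e1, dlM_mulVec, dotProduct_smul, dot_ee, hξ0]
    simp only [smul_zero, add_zero, mul_zero, zero_smul]
  have hne : (lam⁻¹ * lam⁻¹ - 1) ≠ 0 := by
    intro h0
    apply h2
    have : lam⁻¹ * lam⁻¹ = 1 := by linear_combination h0
    field_simp at this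
    exact this.symm
  have hφ' : ((c / (lam⁻¹ * lam⁻¹ - 1)) • ξ) i₀ = 0 := by
    rw [Pi.smul_apply, hξ0, smul_zero]
  have := K_levi ρ ψ hij hη0 hηj hx0 hN _ _ hl hn _ ha hφ'
  have e1 : ((c / (lam⁻¹ * lam⁻¹ - 1)) • ξ) ᵥ* dlM (ee i₀) (ee i₀) (lam - 1)
      = (c / (lam⁻¹ * lam⁻¹ - 1)) • ξ := by
    rw [vecMul_dlM, dot_ee, hφ', mul_zero, zero_smul, add_zero]
  rw [dlS'_coe, ← vecMul_vecMul, e1, vecMul_dlM, smul_dotProduct, hξ] at this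
  have e : lam⁻¹ • ((c / (lam⁻¹ * lam⁻¹ - 1)) • ξ
      + ((lam⁻¹ - 1) * (c / (lam⁻¹ * lam⁻¹ - 1)) • (1 : F)) • ξ) - (c / (lam⁻¹ * lam⁻¹ - 1)) • ξ
      = c • ξ := by
    rw [← add_smul, smul_smul, ← sub_smul]
    congr 1
    rw [smul_eq_mul]
    field_simp
    ring
  rwa [e] at this

include hij hη0 hηj hx0 hN in
theorem K_diag (h3 : Fintype.card ι = 3) {d : F} (hd : d ≠ 0) (hd3 : d ^ 3 ≠ 1) {φ : ι → F}
    (hφ : φ i₀ = 0) : ρ (tv (ee i₀) φ) x₀ = x₀ := by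
  have hl := dgS_mul i₀ h3 d hd
  have hvm : ∀ w : ι → F, w i₀ = 0 →
      w ᵥ* (dgS i₀ h3 d⁻¹ (inv_ne_zero hd) : Matrix ι ι F) = d⁻¹ • w := by
    intro w hw
    rw [dgS_coe]
    ext k
    rw [vecMul_diagonal, Pi.smul_apply, smul_eq_mul]
    by_cases hk : k = i₀
    · rw [hk, hw]
      simp
    · rw [if_neg hk, mul_comm]
  have hn : Nrm ψ η j₀ (dgS i₀ h3 d hd) := by
    apply nrm_of ψ hηj _ _ hl d
    · rw [dgS_coe]
      ext k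
      rw [vecMul_diagonal, Pi.smul_apply, smul_eq_mul, ee_apply]
      by_cases hk : k = j₀
      · rw [if_pos hk, hk, if_neg hij.symm]
        ring
      · rw [if_neg hk]
        ring
    · rw [hvm η hη0, smul_smul, mul_inv_cancel₀ hd, one_smul]
  have ha : (dgS i₀ h3 d hd : Matrix ι ι F) *ᵥ ee i₀ = (d ^ 2)⁻¹ • ee i₀ := by
    rw [dgS_coe]
    ext k
    rw [mulVec_diagonal, Pi.smul_apply, smul_eq_mul, ee_apply]
    by_cases hk : k = i₀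
    · rw [if_pos hk, if_pos hk]
    · rw [if_neg hk, if_neg hk]
      ring
  have hne : ((d ^ 2)⁻¹ * d⁻¹ - 1) ≠ 0 := by
    intro h0
    apply hd3
    have : (d ^ 2)⁻¹ * d⁻¹ = 1 := by linear_combination h0
    field_simp at this
    rw [← this]
  have hφ' : (((d ^ 2)⁻¹ * d⁻¹ - 1)⁻¹ • φ) i₀ = 0 := by
    rw [Pi.smul_apply, hφ, smul_zero]
  have := K_levi ρ ψ hij hη0 hηj hx0 hN _ _ hl hn _ ha hφ'
  rw [hvm _ hφ'] at this
  have e : (d ^ 2)⁻¹ • d⁻¹ • ((d ^ 2)⁻¹ * d⁻¹ - 1)⁻¹ • φ - ((d ^ 2)⁻¹ * d⁻¹ - 1)⁻¹ • φ = φ := by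
    rw [smul_smul, smul_smul, ← sub_smul]
    have : (d ^ 2)⁻¹ * d⁻¹ * ((d ^ 2)⁻¹ * d⁻¹ - 1)⁻¹ - ((d ^ 2)⁻¹ * d⁻¹ - 1)⁻¹ = 1 := by
      rw [← sub_one_mul, mul_inv_cancel₀ hne]
    rw [this, one_smul]
  rwa [e] at this

include hij hη0 hηj hx0 hN in
/-- the point radical fixes the eigenline. -/
theorem K_all (hc : 5 ≤ Fintype.card ι ∨ (Fintype.card ι = 4 ∧ ∃ lam : F, lam ≠ 0 ∧ lam ^ 2 ≠ 1) ∨
      (Fintype.card ι = 3 ∧ ∃ d : F, d ≠ 0 ∧ d ^ 3 ≠ 1)) {φ : ι → F} (hφ : φ i₀ = 0) :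
    ρ (tv (ee i₀) φ) x₀ = x₀ := by
  rcases hc with h5 | ⟨h4, lam, hl, hl2⟩ | ⟨h3, d, hd, hd3⟩
  · obtain ⟨u, hu, e1, e2, e3, e4⟩ := exists_ker4 (by omega) (ee i₀) (ee j₀) η φ
    rw [ee_dot] at e1 e2
    exact K_transv ρ ψ hij hη0 hηj hx0 hN hu e1 e2 e3 hφ e4
  · obtain ⟨u, hu, e1, e2, e3⟩ := exists_ker3 (by omega) (ee i₀) (ee j₀) η
    rw [ee_dot] at e1 e2
    obtain ⟨k, hk⟩ := Function.ne_iff.1 hu
    have hk' : u k ≠ 0 := hk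
    have hki : k ≠ i₀ := by
      rintro rfl
      exact hk' e1
    set ξ : ι → F := (u k)⁻¹ • ee k with hξd
    have hξ : ξ ⬝ᵥ u = 1 := by
      rw [hξd, smul_dotProduct, ee_dot, smul_eq_mul, inv_mul_cancel₀ hk']
    have hξ0 : ξ i₀ = 0 := by
      rw [hξd, Pi.smul_apply, ee_apply, if_neg hki.symm, smul_zero]
    have h1 := K_dil ρ ψ hij hη0 hηj hx0 hN e1 e2 e3 hξ hξ0 hl hl2 (φ ⬝ᵥ u)
    have hf0 : (φ - (φ ⬝ᵥ u) • ξ) i₀ = 0 := by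
      rw [Pi.sub_apply, hφ, Pi.smul_apply, hξ0, smul_zero, sub_zero]
    have h2 := K_transv ρ ψ hij hη0 hηj hx0 hN hu e1 e2 e3 hf0
      (by rw [sub_dotProduct, smul_dotProduct, hξ, smul_eq_mul, mul_one, sub_self])
    have := K_add ρ (by rw [Pi.smul_apply, hξ0, smul_zero]) hf0 h1 h2
    rwa [add_sub_cancel] at this
  · exact K_diag ρ ψ hij hη0 hηj hx0 hN h3 hd hd3 hφ

end K

end Cfsg.Agent.Lib.Helper39.SLmin
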