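import Cfsg.Agent.Lib.Helper39.SLmin.Rad
import Cfsg.Agent.Lib.Helper5.SLGen
import Cfsg.Agent.Lib.Helper80.Inflation

/-!
# First reductions for the minimal degree of `SL_n(q)` (helper39)
-/

set_option autoImplicit false
set_option linter.unusedSectionVars false

namespace Cfsg.Agent.Lib.Helper39.SLmin

open Matrix Cfsg Module Cfsg.Agent.Lib Cfsg.Agent.Lib.Helper15
open scoped ComplexConjugate

section reindex

variable {F : Type*} [Field F] {m n : Type*} [Fintype m] [DecidableEq m] [Fintype n] [DecidableEq n]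

/-- reindexing an element of `SL`. -/
def slRe (e : m ≃ n) (A : Matrix.SpecialLinearGroup m F) : Matrix.SpecialLinearGroup n F :=
  ⟨Matrix.reindex e e (A : Matrix m m F), by
    rw [Matrix.det_reindex_self]
    exact A.2⟩

theorem slRe_coe (e : m ≃ n) (A : Matrix.SpecialLinearGroup m F) :
    (slRe e A : Matrix n n F) = Matrix.reindex e e (A : Matrix m m F) := rfl

/-- reindexing `SL`. -/
def slReindex (e : m ≃ n) : Matrix.SpecialLinearGroup m F ≃* Matrix.SpecialLinearGroup n F where
  toFun A := slRe e A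
  invFun A := slRe e.symm A
  left_inv := by
    intro A
    apply sl_ext
    rw [slRe_coe, slRe_coe]
    ext i j
    simp
  right_inv := by
    intro A
    apply sl_ext
    rw [slRe_coe, slRe_coe]
    ext i j
    simp
  map_mul' := by
    intro A B
    apply sl_ext
    rw [Matrix.SpecialLinearGroup.coe_mul, slRe_coe, slRe_coe, slRe_coe,
      Matrix.SpecialLinearGroup.coe_mul]
    simp only [Matrix.reindex_apply]
    rw [Matrix.submatrix_mul_equiv]

end reindex

variable {F : Type*} [Field F] [Fintype F] [DecidableEq F] {ι : Type*} [Fintype ι] [DecidableEq ι]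

theorem transvection_eq_tv {i j : ι} (hij : i ≠ j) (c : F) :
    Matrix.SpecialLinearGroup.transvection hij c = tv (ee i) (c • ee j) := by
  apply sl_ext
  rw [Matrix.SpecialLinearGroup.transvection_coe, tv_coe (by
    rw [dot_ee, Pi.smul_apply, ee_apply, if_neg hij, smul_zero])]
  congr 1
  ext a b
  rw [vecMulVec_apply, Pi.smul_apply, ee_apply, ee_apply, Matrix.single_apply]
  by_cases h1 : a = i
  · by_cases h2 : b = j
    · simp [h1, h2]
    · simp [h1, h2, Ne.symm h2]
  · simp [h1, Ne.symm h1]

/-- an irreducible character which is constant `= χ 1` on transvections is trivial. -/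
theorem deg_one_of_tv [Nontrivial ι] {χ : Matrix.SpecialLinearGroup ι F → ℂ}
    (hχ : IsIrrCharacter (Matrix.SpecialLinearGroup ι F) χ)
    (h : ∀ v φ : ι → F, χ (tv v φ) = χ 1) : χ 1 = 1 := by
  have hall : ∀ g, χ g = χ 1 := by
    intro g
    have : g ∈ Helper80.charKer χ (irr_char hχ) := by
      refine Helper5.SL_transvection_induction (fun g => g ∈ Helper80.charKer χ (irr_char hχ))
        ?_ ?_ g
      · intro i j hij c
        rw [transvection_eq_tv]
        exact h _ _
      · intro A B hA hB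
        exact mul_mem hA hB
    exact this
  have h2 := irr_inner_self hχ
  unfold classInner at h2
  simp_rw [hall] at h2
  obtain ⟨k, hk⟩ := char_one_nat (irr_char hχ)
  rw [hk] at h2
  rw [Finset.sum_const, Finset.card_univ, nsmul_eq_mul, Complex.conj_natCast,
    Nat.card_eq_fintype_card] at h2
  have hc : (Fintype.card (Matrix.SpecialLinearGroup ι F) : ℂ) ≠ 0 := by
    exact_mod_cast Fintype.card_ne_zero
  rw [← mul_assoc, inv_mul_cancel₀ hc, one_mul] at h2
  have h3 : k * k = 1 := by exact_mod_cast h2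
  have h4 : k = 1 := Nat.eq_one_of_mul_eq_one_right h3
  rw [hk, h4]
  simp

section

variable {V : Type*} [AddCommGroup V] [Module ℂ V] [FiniteDimensional ℂ V]
  (ρ : Representation ℂ (Matrix.SpecialLinearGroup ι F) V) {ψ : AddChar F ℂ} (hψ : ψ 1 ≠ 1)
  {x : ℂ} (hx : ∀ v φ : ι → F, φ ⬝ᵥ v = 0 → v ≠ 0 → φ ≠ 0 → ρ.character (tv v φ) = x)

include hψ hx in
theorem exists_c_m {i j : ι} (hij : i ≠ j) :
    ∃ c m : ℕ, (Fintype.card F : ℂ) * (ρ.character 1 - x)
        = m * (Fintype.card F : ℂ) ^ Fintype.card ι ∧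
      (Fintype.card F : ℂ) * (ρ.character 1 - x) + (Fintype.card F : ℂ) ^ Fintype.card ι * x
        = c * (Fintype.card F : ℂ) ^ Fintype.card ι := by
  have hq : ((Fintype.card F : ℂ) ^ Fintype.card ι) ≠ 0 := by
    apply pow_ne_zero
    exact_mod_cast Fintype.card_ne_zero
  refine ⟨finrank ℂ (eig ρ (jH j) (Lc ψ (0 : ι → F)).toMonoidHom),
    finrank ℂ (eig ρ (jH j) (Lc ψ (ee i : ι → F)).toMonoidHom), ?_, ?_⟩
  · rw [finrank_eig, sum_jH ρ hψ hx j (by rw [ee_apply, if_neg hij.symm]), if_neg (ee_ne_zero i),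
      add_zero, card_fun]
    field_simp
  · rw [finrank_eig, sum_jH ρ hψ hx j rfl, if_pos rfl, card_fun]
    field_simp

end

end Cfsg.Agent.Lib.Helper39.SLmin
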