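import Cfsg.Agent.Lib.Helper39.SLmin.Main1
import Cfsg.Agent.Lib.Helper33.SLminA
import Cfsg.Agent.Lib.Helper33.SLminE
import Cfsg.Agent.Lib.Helper33.SLminB1
import Cfsg.Agent.Lib.Helper21.SLminBg
import Cfsg.Agent.Lib.Helper21.SLminW
import Cfsg.Agent.Lib.Helper33.SLminB2

/-!
# The minimal degree of `SL_n(q)`: the lower bound (helper39)
-/

set_option autoImplicit false
set_option linter.unusedSectionVars false

namespace Cfsg.Agent.Lib.Helper39.SLmin

open Matrix Cfsg Module Cfsg.Agent.Lib Cfsg.Agent.Lib.Helper15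
open scoped ComplexConjugate LinearAlgebra.Projectivization

variable {F : Type*} [Field F] [Fintype F] [DecidableEq F] {ι : Type*} [Fintype ι] [DecidableEq ι]

theorem tv_of_ne {v φ : ι → F} (h : φ ⬝ᵥ v ≠ 0) : tv v φ = 1 := by
  unfold tv
  rw [dif_neg h]

theorem sum_wQ2 (i i' : ι) (χ : Matrix.SpecialLinearGroup ι F → ℂ) :
    (Fintype.card F : ℂ) ^ 2 * ∑ x, ∑ y,
        wQ (Projectivization.mk F (ee i : ι → F) (ee_ne_zero i)) x
          * wQ (Projectivization.mk F (ee i' : ι → F) (ee_ne_zero i')) y * χ (x * y)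
      = ∑ φ : ι → F, ∑ φ' : ι → F, χ (tv (ee i) (pr i φ) * tv (ee i') (pr i' φ')) := by
  have h1 : ∀ g : Matrix.SpecialLinearGroup ι F,
      ∑ φ' : ι → F, χ (g * tv (ee i') (pr i' φ')) = (Fintype.card F : ℂ) *
        ∑ y, wQ (Projectivization.mk F (ee i' : ι → F) (ee_ne_zero i')) y * χ (g * y) := by
    intro g
    rw [Helper21.SLmin.sum_wQ i' (fun y => χ (g * y))]
  simp_rw [h1]
  rw [← Helper21.SLmin.sum_wQ i (fun g => (Fintype.card F : ℂ) *
        ∑ y, wQ (Projectivization.mk F (ee i' : ι → F) (ee_ne_zero i')) y * χ (g * y)),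
    pow_two, mul_assoc]
  congr 1
  rw [Finset.mul_sum]
  apply Finset.sum_congr rfl
  intro x _
  rw [Finset.mul_sum, Finset.mul_sum, Finset.mul_sum]
  apply Finset.sum_congr rfl
  intro y _
  ring

theorem sum_jP_jP (i : ι) (χ : Matrix.SpecialLinearGroup ι F → ℂ) :
    ∑ φ : ι → F, ∑ φ' : ι → F, χ (tv (ee i) (pr i φ) * tv (ee i) (pr i φ'))
      = (Fintype.card F : ℂ) ^ Fintype.card ι * ∑ φ : ι → F, χ (tv (ee i) (pr i φ)) := by
  have h1 : ∀ φ : ι → F, ∑ φ' : ι → F, χ (tv (ee i) (pr i φ) * tv (ee i) (pr i φ'))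
      = ∑ φ : ι → F, χ (tv (ee i) (pr i φ)) := by
    intro φ
    rw [← Equiv.sum_comp (Equiv.addLeft φ) (fun φ => χ (tv (ee i) (pr i φ)))]
    apply Finset.sum_congr rfl
    intro φ' _
    rw [tv_mul_right (pr_dot_ee _ _) (pr_dot_ee _ _), ← pr_add]
    rfl
  rw [Finset.sum_congr rfl (fun φ _ => h1 φ)]
  simp

section block

variable {κ : Type*} [Fintype κ] [DecidableEq κ]

/-- the case `m = 1`. -/
theorem block_m_one [Nonempty κ]
    (hc : 5 ≤ Fintype.card (Fin 2 ⊕ κ) ∨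
      (Fintype.card (Fin 2 ⊕ κ) = 4 ∧ ∃ lam : F, lam ≠ 0 ∧ lam ^ 2 ≠ 1) ∨
      (Fintype.card (Fin 2 ⊕ κ) = 3 ∧ ∃ d : F, d ≠ 0 ∧ d ^ 3 ≠ 1))
    {k : ℕ} (ρ : Representation ℂ (Matrix.SpecialLinearGroup (Fin 2 ⊕ κ) F) (Fin k → ℂ))
    (hirr : ρ.IsIrreducible) {ψ : AddChar F ℂ} (hψ : ψ 1 ≠ 1) {x : ℂ}
    (hx : ∀ v φ : Fin 2 ⊕ κ → F, φ ⬝ᵥ v = 0 → v ≠ 0 → φ ≠ 0 → ρ.character (tv v φ) = x)
    (hk : ρ.character 1 = k) (c : ℕ)
    (hm : (Fintype.card F : ℂ) * (ρ.character 1 - x)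
      = (Fintype.card F : ℂ) ^ Fintype.card (Fin 2 ⊕ κ))
    (hcQ : (Fintype.card F : ℂ) * (ρ.character 1 - x)
        + (Fintype.card F : ℂ) ^ Fintype.card (Fin 2 ⊕ κ) * x
      = c * (Fintype.card F : ℂ) ^ Fintype.card (Fin 2 ⊕ κ)) :
    (Fintype.card F : ℤ) * ((Fintype.card F : ℤ) * (Fintype.card F : ℤ) ^ Fintype.card κ - 1)
      ≤ ((Fintype.card F : ℤ) - 1) * k := by
  classical
  have hχ : IsIrrCharacter (Matrix.SpecialLinearGroup (Fin 2 ⊕ κ) F) ρ.character :=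
    ⟨k, ρ, hirr, rfl⟩
  have hcf := irr_cf hχ
  have h01 : (Sum.inl 0 : Fin 2 ⊕ κ) ≠ Sum.inl 1 := by simp
  have hA₀ := sum_jP ρ hψ hx (Sum.inl 0)
  rw [hcQ] at hA₀
  have hQR := sum_QR ρ hψ hx hm hc hcf h01
  rw [hA₀, Helper21.SLmin.sum_tv_tv'] at hQR
  have hθ := Helper33.isCharacter_sum_PP (irr_char hχ)
  obtain ⟨a, ab, c₂, ha1, ha2, hU, hUL⟩ := Helper33.sl2_bruhat_sum hθ
  have := Fintype.ofFinite (ℙ F (Fin 2 ⊕ κ → F))
  have hp : Projectivization.mk F (ee (Sum.inl 0) : Fin 2 ⊕ κ → F) (ee_ne_zero _)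
      ≠ Projectivization.mk F (ee (Sum.inl 1) : Fin 2 ⊕ κ → F) (ee_ne_zero _) := by
    intro he
    rw [Projectivization.mk_eq_mk_iff] at he
    obtain ⟨u, hu⟩ := he
    have := congrFun hu (Sum.inl 0)
    rw [Units.smul_def, Pi.smul_apply, ee_apply, if_neg h01, ee_apply, if_pos rfl, smul_zero] at this
    exact zero_ne_one this
  have hE := Helper33.E_identity (G := Matrix.SpecialLinearGroup (Fin 2 ⊕ κ) F)
    (Ω := ℙ F (Fin 2 ⊕ κ → F))
    (fun a b c d hab hcd => (MulAction.is_two_pretransitive_iff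
      (G := Matrix.SpecialLinearGroup (Fin 2 ⊕ κ) F) (α := ℙ F (Fin 2 ⊕ κ → F))).1 inferInstance
        hab hcd) hχ wQ Helper21.SLmin.wQ_smul _ _ hp
  have hN := Helper21.SLmin.card_proj (F := F) (ι := Fin 2 ⊕ κ)
  have hS₁ := Helper21.SLmin.sum_wQ (Sum.inl 0 : Fin 2 ⊕ κ) ρ.character
  rw [hA₀] at hS₁
  have hT₀ := sum_wQ2 (Sum.inl 0 : Fin 2 ⊕ κ) (Sum.inl 0) ρ.character
  rw [sum_jP_jP, hA₀] at hT₀
  have hT₁ := sum_wQ2 (Sum.inl 0 : Fin 2 ⊕ κ) (Sum.inl 1) ρ.character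
  rw [Helper21.SLmin.sum_tv_tv] at hT₁
  -- abbreviations
  set N : ℕ := Fintype.card (ℙ F (Fin 2 ⊕ κ → F)) with hNdef
  set S₁ : ℂ := ∑ x, wQ (Projectivization.mk F (ee (Sum.inl 0) : Fin 2 ⊕ κ → F) (ee_ne_zero _)) x
    * ρ.character x with hS₁def
  set T₀ : ℂ := ∑ x, ∑ y, wQ (Projectivization.mk F (ee (Sum.inl 0) : Fin 2 ⊕ κ → F) (ee_ne_zero _)) x
    * wQ (Projectivization.mk F (ee (Sum.inl 0) : Fin 2 ⊕ κ → F) (ee_ne_zero _)) y
    * ρ.character (x * y) with hT₀def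
  set T₁ : ℂ := ∑ x, ∑ y, wQ (Projectivization.mk F (ee (Sum.inl 0) : Fin 2 ⊕ κ → F) (ee_ne_zero _)) x
    * wQ (Projectivization.mk F (ee (Sum.inl 1) : Fin 2 ⊕ κ → F) (ee_ne_zero _)) y
    * ρ.character (x * y) with hT₁def
  set q : ℂ := (Fintype.card F : ℂ) with hq
  set s : ℂ := q ^ Fintype.card κ with hs
  have hQ : q ^ Fintype.card (Fin 2 ⊕ κ) = q ^ 2 * s := by
    rw [Fintype.card_sum, Fintype.card_fin, pow_add]
  have hs2 : q ^ (2 * Fintype.card κ) = s ^ 2 := by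
    rw [hs, ← pow_mul, mul_comm]
  have hq0 : q ≠ 0 := by
    rw [hq]
    exact_mod_cast Fintype.card_ne_zero
  have hs0 : s ≠ 0 := pow_ne_zero _ hq0
  rw [hQ] at hm hcQ hQR hN hS₁ hT₀
  simp only [hs2] at hU hUL
  rw [← Finset.mul_sum] at hU
  simp_rw [← Finset.mul_sum] at hUL
  set U1 : ℂ := ∑ t : F, ∑ X : Matrix (Fin 2) κ F, ρ.character (PP (xU t) X) with hU1
  set U2 : ℂ := ∑ t : F, ∑ t' : F, ∑ X : Matrix (Fin 2) κ F, ρ.character (PP (xU t * xL t') X)
    with hU2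
  have hU1' : U1 = s ^ 2 * (q * c₂) := by
    rw [← hU]
    field_simp
  have hU2' : U2 = s ^ 2 * (q * c₂ + (q ^ 2 - 1) * a - (q - 1) * ab) := by
    rw [← hUL]
    field_simp
  rw [hk] at hm hcQ hE
  -- the relations
  have hx' : x = c - 1 := by
    have : q ^ 2 * s * (x - (c - 1)) = 0 := by linear_combination hcQ - hm
    rcases mul_eq_zero.1 this with h | h
    · exact absurd h (mul_ne_zero (pow_ne_zero _ hq0) hs0)
    · linear_combination h
  have hd : (k : ℂ) = c + q * s - 1 := by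
    have : q * ((k : ℂ) - (c + q * s - 1)) = 0 := by
      rw [hx'] at hm
      linear_combination hm
    rcases mul_eq_zero.1 this with h | h
    · exact absurd h hq0
    · linear_combination h
  have hc₂ : (c₂ : ℂ) = c - s + 1 := by
    rw [hU1'] at hQR
    have : q ^ 6 * s ^ 2 * ((c₂ : ℂ) - (c - s + 1)) = 0 := by linear_combination hQR
    rcases mul_eq_zero.1 this with h | h
    · exact absurd h (mul_ne_zero (pow_ne_zero _ hq0) (pow_ne_zero _ hs0))
    · linear_combination h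
  have hS₁' : S₁ = c * q * s := by
    have : q * (S₁ - c * q * s) = 0 := by linear_combination hS₁
    rcases mul_eq_zero.1 this with h | h
    · exact absurd h hq0
    · linear_combination h
  have hT₀' : T₀ = c * q ^ 2 * s ^ 2 := by
    have : q ^ 2 * (T₀ - c * q ^ 2 * s ^ 2) = 0 := by linear_combination hT₀
    rcases mul_eq_zero.1 this with h | h
    · exact absurd h (pow_ne_zero _ hq0)
    · linear_combination h
  have hT₁' : T₁ = s ^ 2 * (q * c₂ + (q ^ 2 - 1) * a - (q - 1) * ab) := by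
    rw [hU2'] at hT₁
    exact mul_left_cancel₀ (pow_ne_zero _ hq0) hT₁
  rw [hS₁', hT₀', hT₁'] at hE
  have hE' : (N : ℂ) * q ^ 2 * c ^ 2
      = k * (q ^ 2 * c + ((N : ℂ) - 1) * (q * c₂ + (q ^ 2 - 1) * a - (q - 1) * ab)) := by
    have : s ^ 2 * ((N : ℂ) * q ^ 2 * c ^ 2
      - k * (q ^ 2 * c + ((N : ℂ) - 1) * (q * c₂ + (q ^ 2 - 1) * a - (q - 1) * ab))) = 0 := by
      linear_combination hE
    rcases mul_eq_zero.1 this with h | h
    · exact absurd h (pow_ne_zero _ hs0)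
    · linear_combination h
  -- to the integers
  have hq2 : 2 ≤ Fintype.card F := Fintype.one_lt_card
  apply Helper33.arith_main (Fintype.card F : ℤ) ((Fintype.card F : ℤ) ^ Fintype.card κ) c c₂ a ab k N
  · exact_mod_cast hq2
  · have : 1 ≤ Fintype.card κ := Fintype.card_pos
    have h3 : Fintype.card F ^ 1 ≤ Fintype.card F ^ Fintype.card κ :=
      Nat.pow_le_pow_right (by omega) this
    rw [pow_one] at h3
    exact_mod_cast h3
  · have : ((((Fintype.card F : ℤ) - 1) * N : ℤ) : ℂ)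
        = (((Fintype.card F : ℤ) ^ 2 * (Fintype.card F : ℤ) ^ Fintype.card κ - 1 : ℤ) : ℂ) := by
      push_cast
      exact hN
    exact_mod_cast this
  · positivity
  · positivity
  · have : (((k : ℤ) : ℤ) : ℂ)
        = (((c : ℤ) + (Fintype.card F : ℤ) * (Fintype.card F : ℤ) ^ Fintype.card κ - 1 : ℤ) : ℂ) := by
      push_cast
      exact hd
    exact_mod_cast this
  · have : (((c₂ : ℤ) : ℤ) : ℂ)
        = (((c : ℤ) - (Fintype.card F : ℤ) ^ Fintype.card κ + 1 : ℤ) : ℂ) := by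
      push_cast
      exact hc₂
    exact_mod_cast this
  · exact_mod_cast ha1
  · exact_mod_cast ha2
  · have : (((N : ℤ) * (Fintype.card F : ℤ) ^ 2 * (c : ℤ) ^ 2 : ℤ) : ℂ)
        = (((k : ℤ) * ((Fintype.card F : ℤ) ^ 2 * c + ((N : ℤ) - 1) * ((Fintype.card F : ℤ) * c₂
          + ((Fintype.card F : ℤ) ^ 2 - 1) * a - ((Fintype.card F : ℤ) - 1) * ab)) : ℤ) : ℂ) := by
      push_cast
      exact hE'
    exact_mod_cast this

/-- the lower bound, in block form. -/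
theorem block_bound [Nonempty κ]
    (hc : 5 ≤ Fintype.card (Fin 2 ⊕ κ) ∨
      (Fintype.card (Fin 2 ⊕ κ) = 4 ∧ ∃ lam : F, lam ≠ 0 ∧ lam ^ 2 ≠ 1) ∨
      (Fintype.card (Fin 2 ⊕ κ) = 3 ∧ ∃ d : F, d ≠ 0 ∧ d ^ 3 ≠ 1))
    {χ : Matrix.SpecialLinearGroup (Fin 2 ⊕ κ) F → ℂ}
    (hχ : IsIrrCharacter (Matrix.SpecialLinearGroup (Fin 2 ⊕ κ) F) χ) {k : ℕ} (hk : χ 1 = k)
    (h2 : 2 ≤ k) :
    (Fintype.card F : ℤ) * ((Fintype.card F : ℤ) * (Fintype.card F : ℤ) ^ Fintype.card κ - 1)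
      ≤ ((Fintype.card F : ℤ) - 1) * k := by
  classical
  have hχ' := hχ
  obtain ⟨k', ρ, hirr, rfl⟩ := hχ
  have hkk : k' = k := by
    rw [Representation.char_one] at hk
    simpa using hk
  subst hkk
  have hcf := irr_cf hχ'
  obtain ⟨ψ, hψ⟩ := SUDeg.exists_addChar_one_ne (F := F)
  obtain ⟨k₀⟩ := ‹Nonempty κ›
  have h01 : (Sum.inl 0 : Fin 2 ⊕ κ) ≠ Sum.inl 1 := by simp
  have h02 : (Sum.inl 0 : Fin 2 ⊕ κ) ≠ Sum.inr k₀ := by simp
  have h12 : (Sum.inl 1 : Fin 2 ⊕ κ) ≠ Sum.inr k₀ := by simp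
  have hx : ∀ v φ : Fin 2 ⊕ κ → F, φ ⬝ᵥ v = 0 → v ≠ 0 → φ ≠ 0 → ρ.character (tv v φ)
      = ρ.character (tv (ee (Sum.inl 0)) (ee (Sum.inl 1) : Fin 2 ⊕ κ → F)) :=
    fun v φ h hv hφ => chi_tv hcf h01 h02 h12 h hv hφ
  obtain ⟨c, m, hm, hcQ⟩ := exists_c_m ρ hψ hx h01
  set x := ρ.character (tv (ee (Sum.inl 0)) (ee (Sum.inl 1) : Fin 2 ⊕ κ → F)) with hxdef
  have hq0 : (Fintype.card F : ℂ) ≠ 0 := by exact_mod_cast Fintype.card_ne_zero
  have hq2 : 2 ≤ Fintype.card F := Fintype.one_lt_card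
  rcases Nat.lt_or_ge m 2 with hm2 | hm2
  · interval_cases m
    · -- `m = 0`
      exfalso
      have h1 : ρ.character 1 = x := by
        rw [Nat.cast_zero, zero_mul] at hm
        rcases mul_eq_zero.1 hm with h | h
        · exact absurd h hq0
        · linear_combination h
      have h3 : ρ.character 1 = 1 := by
        have : Nontrivial (Fin 2 ⊕ κ) := ⟨⟨_, _, h01⟩⟩
        apply deg_one_of_tv hχ'
        intro v φ
        by_cases h : φ ⬝ᵥ v = 0
        · by_cases hv : v = 0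
          · rw [hv, tv_zero_left]
          · by_cases hφ : φ = 0
            · rw [hφ, tv_zero_right]
            · rw [hx v φ h hv hφ, h1]
        · rw [tv_of_ne h]
      rw [hk] at h3
      have : k' = 1 := by exact_mod_cast h3
      omega
    · -- `m = 1`
      rw [Nat.cast_one, one_mul] at hm
      exact block_m_one hc ρ hirr hψ hx hk c hm hcQ
  · -- `m ≥ 2`
    have hQ : (Fintype.card F : ℂ) ^ Fintype.card (Fin 2 ⊕ κ)
        = (Fintype.card F : ℂ) ^ 2 * (Fintype.card F : ℂ) ^ Fintype.card κ := by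
      rw [Fintype.card_sum, Fintype.card_fin, pow_add]
    rw [hQ, hk] at hm hcQ
    have hs0 : (Fintype.card F : ℂ) ^ Fintype.card κ ≠ 0 := pow_ne_zero _ hq0
    have hx' : x = c - m := by
      have : (Fintype.card F : ℂ) ^ 2 * (Fintype.card F : ℂ) ^ Fintype.card κ * (x - (c - m)) = 0 := by
        linear_combination hcQ - hm
      rcases mul_eq_zero.1 this with h | h
      · exact absurd h (mul_ne_zero (pow_ne_zero _ hq0) hs0)
      · linear_combination h
    have hd : (k' : ℂ) = c + m * ((Fintype.card F : ℂ) * (Fintype.card F : ℂ) ^ Fintype.card κ - 1) := by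
      have : (Fintype.card F : ℂ) * ((k' : ℂ)
          - (c + m * ((Fintype.card F : ℂ) * (Fintype.card F : ℂ) ^ Fintype.card κ - 1))) = 0 := by
        rw [hx'] at hm
        linear_combination hm
      rcases mul_eq_zero.1 this with h | h
      · exact absurd h hq0
      · linear_combination h
    have hd' : (k' : ℤ)
        = c + m * ((Fintype.card F : ℤ) * (Fintype.card F : ℤ) ^ Fintype.card κ - 1) := by
      have : (((k' : ℤ) : ℤ) : ℂ) = (((c : ℤ)
          + m * ((Fintype.card F : ℤ) * (Fintype.card F : ℤ) ^ Fintype.card κ - 1) : ℤ) : ℂ) := by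
        push_cast
        exact hd
      exact_mod_cast this
    rw [hd']
    have e1 : (2 : ℤ) ≤ Fintype.card F := by exact_mod_cast hq2
    have e2 : (2 : ℤ) ≤ m := by exact_mod_cast hm2
    have e3 : (0 : ℤ) ≤ c := by positivity
    have e4 : (1 : ℤ) ≤ (Fintype.card F : ℤ) ^ Fintype.card κ := by
      have : 1 ≤ Fintype.card F ^ Fintype.card κ := Nat.one_le_pow _ _ (by omega)
      exact_mod_cast this
    generalize (Fintype.card F : ℤ) ^ Fintype.card κ = s at e4 ⊢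
    generalize (Fintype.card F : ℤ) = q at e1 ⊢
    generalize (m : ℤ) = M at e2 ⊢
    generalize (c : ℤ) = C at e3 ⊢
    have e5 : 0 ≤ q * s - 1 := by nlinarith
    have e6 : 0 ≤ (q - 1) * C := by nlinarith
    have e7 : 0 ≤ (M - 2) * ((q - 1) * (q * s - 1)) := by
      apply mul_nonneg (by linarith)
      apply mul_nonneg (by linarith) e5
    have e8 : 0 ≤ (q - 2) * (q * s - 1) := mul_nonneg (by linarith) e5
    nlinarith

end block

theorem sq_eq_one_iff_of_side39 {a : F} (h : a ^ 2 = 1) : a = 1 ∨ a = -1 := by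
  have : (a - 1) * (a + 1) = 0 := by linear_combination h
  rcases mul_eq_zero.1 this with h1 | h1
  · left; linear_combination h1
  · right; linear_combination h1

theorem exists_sq_ne_one (h : 4 ≤ Fintype.card F) : ∃ lam : F, lam ≠ 0 ∧ lam ^ 2 ≠ 1 := by
  by_contra hcon
  push Not at hcon
  have h1 : (Finset.univ : Finset F) ⊆ {0, 1, -1} := by
    intro a _
    simp only [Finset.mem_insert, Finset.mem_singleton]
    by_cases ha : a = 0
    · left; exact ha
    · right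
      exact sq_eq_one_iff_of_side39 (hcon a ha)
  have h2 := Finset.card_le_card h1
  rw [Finset.card_univ] at h2
  have h3 := Finset.card_le_three (a := (0 : F)) (b := 1) (c := -1)
  omega

theorem exists_cube_ne_one (h2 : Fintype.card F ≠ 2) (h4 : Fintype.card F ≠ 4) :
    ∃ d : F, d ≠ 0 ∧ d ^ 3 ≠ 1 := by
  by_contra hcon
  push Not at hcon
  obtain ⟨g, hg⟩ := IsCyclic.exists_generator (α := Fˣ)
  have h1 : orderOf g = Fintype.card Fˣ := by
    rw [orderOf_eq_card_of_forall_mem_zpowers hg, Nat.card_eq_fintype_card]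
  have h3 : g ^ 3 = 1 := by
    apply Units.ext
    rw [Units.val_pow_eq_pow_val, Units.val_one]
    exact hcon _ g.ne_zero
  have h5 := orderOf_dvd_of_pow_eq_one h3
  rw [h1, Fintype.card_units] at h5
  have h6 : Fintype.card F - 1 = 1 ∨ Fintype.card F - 1 = 3 :=
    (Nat.dvd_prime Nat.prime_three).1 h5
  have h7 : 2 ≤ Fintype.card F := Fintype.one_lt_card
  omega

/-- the lower bound for `SL_n(q)`. -/
theorem sl_lower_bound (n : ℕ) (hn : 3 ≤ n)
    (hex : (n, Fintype.card F) ≠ (3, 2) ∧ (n, Fintype.card F) ≠ (3, 4) ∧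
      (n, Fintype.card F) ≠ (4, 2) ∧ (n, Fintype.card F) ≠ (4, 3))
    {χ : Matrix.SpecialLinearGroup (Fin n) F → ℂ}
    (hχ : IsIrrCharacter (Matrix.SpecialLinearGroup (Fin n) F) χ) {k : ℕ} (hk : χ 1 = k)
    (h2 : 2 ≤ k) :
    (Fintype.card F ^ n - Fintype.card F) / (Fintype.card F - 1) ≤ k := by
  classical
  obtain ⟨m, rfl⟩ : ∃ m, n = 2 + (m + 1) := ⟨n - 3, by omega⟩
  have hq2 : 2 ≤ Fintype.card F := Fintype.one_lt_card
  have hc : 5 ≤ Fintype.card (Fin 2 ⊕ Fin (m + 1)) ∨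
      (Fintype.card (Fin 2 ⊕ Fin (m + 1)) = 4 ∧ ∃ lam : F, lam ≠ 0 ∧ lam ^ 2 ≠ 1) ∨
      (Fintype.card (Fin 2 ⊕ Fin (m + 1)) = 3 ∧ ∃ d : F, d ≠ 0 ∧ d ^ 3 ≠ 1) := by
    rw [Fintype.card_sum, Fintype.card_fin, Fintype.card_fin]
    obtain ⟨e1, e2, e3, e4⟩ := hex
    rcases Nat.lt_or_ge m 2 with hm | hm
    · interval_cases m
      · right; right
        refine ⟨rfl, exists_cube_ne_one ?_ ?_⟩
        · intro h
          exact e1 (by rw [h])
        · intro h
          exact e2 (by rw [h])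
      · right; left
        refine ⟨rfl, exists_sq_ne_one ?_⟩
        by_contra hlt
        have : Fintype.card F = 2 ∨ Fintype.card F = 3 := by omega
        rcases this with h | h
        · exact e3 (by rw [h])
        · exact e4 (by rw [h])
    · left
      omega
  have h3 := Helper80.isIrrCharacter_comp
    (slReindex (F := F) (finSumFinEquiv (m := 2) (n := m + 1))).toMonoidHom
    (slReindex (F := F) (finSumFinEquiv (m := 2) (n := m + 1))).surjective hχ
  have h4 := block_bound hc h3 (k := k) (by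
    rw [Function.comp_apply, map_one, hk]) h2
  rw [Fintype.card_fin] at h4
  apply Nat.div_le_of_le_mul
  rw [Nat.sub_le_iff_le_add]
  have h5 : (Fintype.card F : ℤ) ^ (2 + (m + 1)) ≤ ((Fintype.card F : ℤ) - 1) * k + Fintype.card F := by
    have : (Fintype.card F : ℤ) ^ (2 + (m + 1))
        = (Fintype.card F : ℤ) * ((Fintype.card F : ℤ) * (Fintype.card F : ℤ) ^ (m + 1)) := by ring
    rw [this]
    linarith
  have h6 : ((Fintype.card F - 1 : ℕ) : ℤ) = (Fintype.card F : ℤ) - 1 := by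
    rw [Nat.cast_sub (by omega)]
    simp
  rw [← h6] at h5
  exact_mod_cast h5

end Cfsg.Agent.Lib.Helper39.SLmin
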