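import Cfsg.Agent.Lib.Helper39.SLmin.Heis

/-!
# The sum of `χ` over the product of the point radical with the next root groups (helper39)
-/

set_option autoImplicit false
set_option linter.unusedSectionVars false

namespace Cfsg.Agent.Lib.Helper39.SLmin

open Matrix Cfsg Module
open scoped ComplexConjugate

variable {F : Type*} [Field F] [Fintype F] [DecidableEq F] {ι : Type*} [Fintype ι] [DecidableEq ι]

/-- the shear `φ ↦ φ + φ j • ζ`. -/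
def shearE (j : ι) (ζ : ι → F) (hζ : ζ j = 0) : (ι → F) ≃ (ι → F) where
  toFun φ := φ + φ j • ζ
  invFun φ := φ - φ j • ζ
  left_inv := by
    intro φ
    simp only [Pi.add_apply, Pi.smul_apply, hζ, smul_zero, add_zero]
    abel
  right_inv := by
    intro φ
    simp only [Pi.sub_apply, Pi.smul_apply, hζ, smul_zero, sub_zero]
    abel

theorem sum_conj_r {χ : Matrix.SpecialLinearGroup ι F → ℂ}
    (hχ : IsClassFunction (Matrix.SpecialLinearGroup ι F) χ) {i₀ i₁ j₀ : ι} (h0j : i₀ ≠ j₀)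
    (h1j : i₁ ≠ j₀) {φ : ι → F} (h0 : φ i₀ = 0) (h1 : φ i₁ = 0) (hj : φ j₀ ≠ 0) :
    ∑ φ' : ι → F, χ (tv (ee i₀) (pr i₀ φ') * tv (ee i₁) φ)
      = ∑ φ' : ι → F, χ (tv (ee i₀) (pr i₀ φ') * tv (ee i₁) (φ j₀ • ee j₀)) := by
  set t := φ j₀ with ht
  set ζ : ι → F := ee j₀ - t⁻¹ • φ with hζ
  have hζj : ζ j₀ = 0 := by
    rw [hζ, Pi.sub_apply, ee_apply, if_pos rfl, Pi.smul_apply, smul_eq_mul, ← ht,
      inv_mul_cancel₀ hj, sub_self]
  have hζ1 : ζ ⬝ᵥ ee j₀ = 0 := by rw [dot_ee, hζj]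
  have hζ1' : (-ζ) ⬝ᵥ ee j₀ = 0 := by rw [neg_dotProduct, hζ1, neg_zero]
  have hζ0 : ζ i₀ = 0 := by
    rw [hζ, Pi.sub_apply, ee_apply, if_neg h0j, Pi.smul_apply, h0, smul_zero, sub_zero]
  have hζi1 : ζ i₁ = 0 := by
    rw [hζ, Pi.sub_apply, ee_apply, if_neg h1j, Pi.smul_apply, h1, smul_zero, sub_zero]
  have hB : tv (ee j₀) (-ζ) * tv (ee j₀) ζ = 1 := by rw [← tv_inv hζ1, inv_mul_cancel]
  rw [← Equiv.sum_comp (shearE j₀ ζ hζj) (fun φ' => χ (tv (ee i₀) (pr i₀ φ') * tv (ee i₁) (t • ee j₀)))]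
  apply Finset.sum_congr rfl
  intro φ' _
  rw [← cf_conj hχ _ _ _ hB]
  congr 1
  have hφ1 : φ ⬝ᵥ ee i₁ = 0 := by rw [dot_ee, h1]
  have k1 := conj_tv _ _ hB hφ1
  have k0 := conj_tv _ _ hB (pr_dot_ee i₀ φ')
  have hB' : tv (ee j₀) ζ * tv (ee j₀) (-ζ) = 1 := by rw [← tv_inv hζ1, mul_inv_cancel]
  have e : tv (ee j₀) (-ζ) * (tv (ee i₀) (pr i₀ φ') * tv (ee i₁) φ) * tv (ee j₀) ζ
      = (tv (ee j₀) (-ζ) * tv (ee i₀) (pr i₀ φ') * tv (ee j₀) ζ)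
        * (tv (ee j₀) (-ζ) * tv (ee i₁) φ * tv (ee j₀) ζ) := by
    have : ∀ a b c d : Matrix.SpecialLinearGroup ι F, d * a = 1 →
        a * (b * c) * d = (a * b * d) * (a * c * d) := by
      intro a b c d h
      calc a * (b * c) * d = a * b * 1 * c * d := by group
        _ = a * b * (d * a) * c * d := by rw [h]
        _ = (a * b * d) * (a * c * d) := by group
    exact this _ _ _ _ hB'
  rw [e, k1, k0]
  congr 2
  · rw [tv_mulVec hζ1', neg_dotProduct, dot_ee, hζ0]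
    simp
  · rw [vecMul_tv hζ1, dot_ee]
    change _ = pr i₀ (φ' + φ' j₀ • ζ)
    rw [pr_add, pr_apply, if_neg h0j.symm, pr_of_zero (v := φ' j₀ • ζ)]
    rw [Pi.smul_apply, hζ0, smul_zero]
  · rw [tv_mulVec hζ1', neg_dotProduct, dot_ee, hζi1]
    simp
  · rw [vecMul_tv hζ1, dot_ee, ← ht, hζ, smul_sub, smul_smul, mul_inv_cancel₀ hj, one_smul]
    abel

section

variable {V : Type*} [AddCommGroup V] [Module ℂ V] [FiniteDimensional ℂ V]
  (ρ : Representation ℂ (Matrix.SpecialLinearGroup ι F) V) {ψ : AddChar F ℂ} (hψ : ψ 1 ≠ 1)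
  {x : ℂ} (hx : ∀ v φ : ι → F, φ ⬝ᵥ v = 0 → v ≠ 0 → φ ≠ 0 → ρ.character (tv v φ) = x)
  (hm : (Fintype.card F : ℂ) * (ρ.character 1 - x) = (Fintype.card F : ℂ) ^ Fintype.card ι)
  (hc : 5 ≤ Fintype.card ι ∨ (Fintype.card ι = 4 ∧ ∃ lam : F, lam ≠ 0 ∧ lam ^ 2 ≠ 1) ∨
      (Fintype.card ι = 3 ∧ ∃ d : F, d ≠ 0 ∧ d ^ 3 ≠ 1))
  (hcf : IsClassFunction (Matrix.SpecialLinearGroup ι F) ρ.character)

include hψ hx hm hc hcf in
theorem sum_Q_r {i₀ i₁ : ι} (h01 : i₀ ≠ i₁) {φ : ι → F} (h0 : φ i₀ = 0) (h1 : φ i₁ = 0)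
    (hφ : φ ≠ 0) :
    (Fintype.card F : ℂ) ^ 2 * (∑ φ' : ι → F, ρ.character (tv (ee i₀) (pr i₀ φ'))
        - ∑ φ' : ι → F, ρ.character (tv (ee i₀) (pr i₀ φ') * tv (ee i₁) φ))
      = (Fintype.card F : ℂ) ^ Fintype.card ι * (Fintype.card F : ℂ) ^ Fintype.card ι := by
  obtain ⟨j₀, hj⟩ := Function.ne_iff.1 hφ
  have hj' : φ j₀ ≠ 0 := hj
  have h0j : i₀ ≠ j₀ := by
    rintro rfl
    exact hj' h0
  have h1j : i₁ ≠ j₀ := by
    rintro rfl
    exact hj' h1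
  have hv : (φ j₀ • (ee i₁ : ι → F)) i₁ ≠ 0 := by
    rw [Pi.smul_apply, ee_apply, if_pos rfl, smul_eq_mul, mul_one]
    exact hj'
  have key := fH_value ρ hψ hx hm h0j hc h01.symm h1j hv
  rw [← key, sum_conj_r hcf h0j h1j h0 h1 hj']
  unfold fH
  congr 2
  · apply Finset.sum_congr rfl
    intro φ' _
    rw [pr_zero, tv_zero_left, mul_one]
  · apply Finset.sum_congr rfl
    intro φ' _
    rw [pr_of_zero (v := φ j₀ • (ee i₁ : ι → F)), tv_smul]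
    rw [Pi.smul_apply, ee_apply, if_neg h1j.symm, smul_zero]

include hψ hx hm hc hcf in
theorem sum_QR {i₀ i₁ : ι} (h01 : i₀ ≠ i₁) :
    (Fintype.card F : ℂ) ^ 2 * ∑ φ : ι → F, ∑ φ' : ι → F,
        ρ.character (tv (ee i₀) (pr i₀ φ) * tv (ee i₁) (pr i₀ (pr i₁ φ')))
      = ((Fintype.card F : ℂ) ^ 2 * (∑ φ : ι → F, ρ.character (tv (ee i₀) (pr i₀ φ)))
          - (Fintype.card F : ℂ) ^ Fintype.card ι * (Fintype.card F : ℂ) ^ Fintype.card ι)
          * (Fintype.card F : ℂ) ^ Fintype.card ι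
        + (Fintype.card F : ℂ) ^ Fintype.card ι * (Fintype.card F : ℂ) ^ Fintype.card ι
          * (Fintype.card F : ℂ) ^ 2 := by
  set Q : ℂ := (Fintype.card F : ℂ) ^ Fintype.card ι with hQ
  set A₀ : ℂ := ∑ φ : ι → F, ρ.character (tv (ee i₀) (pr i₀ φ)) with hA₀
  rw [Finset.sum_comm,
    sum_pr_pr h01 (fun T => ∑ φ : ι → F, ρ.character (tv (ee i₀) (pr i₀ φ) * tv (ee i₁) T))]
  have h1 : ∀ T : ι → F, (Fintype.card F : ℂ) ^ 2 * (if T i₀ = 0 ∧ T i₁ = 0 then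
        ∑ φ : ι → F, ρ.character (tv (ee i₀) (pr i₀ φ) * tv (ee i₁) T) else 0)
      = (if T i₀ = 0 ∧ T i₁ = 0 then (fun _ : ι → F => (Fintype.card F : ℂ) ^ 2 * A₀ - Q * Q) T else 0)
        + if T = 0 then Q * Q else 0 := by
    intro T
    by_cases hT : T = 0
    · subst hT
      simp only [Pi.zero_apply, and_self, if_true, tv_zero_right, mul_one]
      ring
    · rw [if_neg hT, add_zero]
      split_ifs with h
      · have := sum_Q_r ρ hψ hx hm hc hcf h01 h.1 h.2 hT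
        rw [← hA₀, ← hQ] at this
        linear_combination -this
      · rw [mul_zero]
  have h2 := sum_pr_pr h01 (fun _ : ι → F => (Fintype.card F : ℂ) ^ 2 * A₀ - Q * Q)
  rw [Finset.mul_sum (a := (Fintype.card F : ℂ) ^ 2) (s := Finset.univ)
      (f := fun T : ι → F => if T i₀ = 0 ∧ T i₁ = 0 then
        ∑ φ : ι → F, ρ.character (tv (ee i₀) (pr i₀ φ) * tv (ee i₁) T) else 0),
    Finset.sum_congr rfl (fun T _ => h1 T), Finset.sum_add_distrib, mul_add, ← h2]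
  simp only [Finset.sum_const, Finset.card_univ, Finset.sum_ite_eq', Finset.mem_univ, if_true,
    nsmul_eq_mul, Fintype.card_fun]
  push_cast
  rw [← hQ]
  ring

end

end Cfsg.Agent.Lib.Helper39.SLmin
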