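import Cfsg.Agent.Lib.Helper39.SLmin.Block
import Cfsg.Agent.Lib.Helper39.SU.Fourier

/-!
# Character sums over `ι → F` (helper39)
-/

set_option autoImplicit false
set_option linter.unusedSectionVars false

namespace Cfsg.Agent.Lib.Helper39.SLmin

open Matrix Cfsg Module
open scoped ComplexConjugate

variable {F : Type*} [Field F] [Fintype F] [DecidableEq F] {ι : Type*} [Fintype ι] [DecidableEq ι]

theorem sum_psi_dot {ψ : AddChar F ℂ} (hψ : ψ 1 ≠ 1) {η : ι → F} (hη : η ≠ 0) :
    ∑ v : ι → F, ψ (η ⬝ᵥ v) = 0 := by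
  have h1 : Lc ψ η ≠ 1 := by
    intro h
    obtain ⟨z, hz⟩ := exists_dot_eq_one hη
    have h2 : Lc ψ η z = 1 := by rw [h]; rfl
    rw [Lc_apply, hz] at h2
    exact hψ h2
  exact AddChar.sum_eq_zero_of_ne_one h1

theorem sum_psi_dot' {ψ : AddChar F ℂ} (hψ : ψ 1 ≠ 1) {z : ι → F} (hz : z ≠ 0) :
    ∑ η : ι → F, ψ (η ⬝ᵥ z) = 0 := by
  simp_rw [dotProduct_comm _ z]
  exact sum_psi_dot hψ hz

theorem pr_add_smul_ee (j : ι) (T : ι → F) (a : F) : pr j (T + a • ee j) = pr j T := by
  ext k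
  rw [pr_apply, pr_apply]
  split_ifs with hk
  · rfl
  · rw [Pi.add_apply, Pi.smul_apply, ee_apply, if_neg hk, smul_zero, add_zero]

theorem sum_pr (j : ι) (g : (ι → F) → ℂ) :
    ∑ T, g (pr j T) = (Fintype.card F : ℂ) * ∑ T : ι → F, if T j = 0 then g T else 0 := by
  have h1 : ∀ a : F, ∑ T : ι → F, (if T j = a then g (pr j T) else 0)
      = ∑ T : ι → F, if T j = 0 then g T else 0 := by
    intro a
    rw [← Equiv.sum_comp (Equiv.addRight (a • (ee j : ι → F)))]
    apply Finset.sum_congr rfl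
    intro T _
    have e1 : (Equiv.addRight (a • (ee j : ι → F))) T = T + a • ee j := rfl
    have e2 : (T + a • (ee j : ι → F)) j = T j + a := by
      rw [Pi.add_apply, Pi.smul_apply, ee_apply, if_pos rfl, smul_eq_mul, mul_one]
    rw [e1, pr_add_smul_ee]
    by_cases hT : T j = 0
    · rw [if_pos hT, if_pos (by rw [e2, hT, zero_add]), pr_of_zero hT]
    · rw [if_neg hT, if_neg]
      intro h
      rw [e2] at h
      exact hT (by simpa using h)
  have h2 : ∑ T, g (pr j T) = ∑ a : F, ∑ T : ι → F, (if T j = a then g (pr j T) else 0) := by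
    rw [Finset.sum_comm]
    apply Finset.sum_congr rfl
    intro T _
    rw [Finset.sum_ite_eq]
    simp
  rw [h2]
  simp_rw [h1]
  simp

theorem pr_eq_zero_iff (j : ι) (v : ι → F) : pr j v = 0 ↔ v = v j • ee j := by
  constructor
  · intro h
    ext k
    rw [Pi.smul_apply, ee_apply]
    by_cases hk : k = j
    · rw [if_pos hk, hk]
      simp
    · have := congrFun h k
      rw [pr_apply, if_neg hk] at this
      rw [if_neg hk, this]
      simp
  · intro h
    rw [h]
    ext k
    rw [pr_apply]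
    split_ifs with hk
    · rfl
    · rw [Pi.smul_apply, ee_apply, if_neg hk]
      simp

theorem sum_pr_eq_zero (j : ι) (g : (ι → F) → ℂ) :
    ∑ v : ι → F, (if pr j v = 0 then g v else 0) = ∑ a : F, g (a • ee j) := by
  rw [← Finset.sum_filter]
  have h1 : (Finset.univ.filter fun v : ι → F => pr j v = 0)
      = Finset.univ.image (fun a : F => a • (ee j : ι → F)) := by
    ext v
    simp only [Finset.mem_filter, Finset.mem_univ, true_and, Finset.mem_image]
    constructor
    · intro h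
      exact ⟨v j, ((pr_eq_zero_iff j v).1 h).symm⟩
    · rintro ⟨a, rfl⟩
      rw [pr_eq_zero_iff, Pi.smul_apply, ee_apply, if_pos rfl, smul_eq_mul, mul_one]
  rw [h1, Finset.sum_image]
  intro a _ b _ hab
  have := congrFun hab j
  simpa [ee_apply] using this

/-- Fourier coefficient of a function with two values. -/
theorem sum_two_val {ψ : AddChar F ℂ} (hψ : ψ 1 ≠ 1) (j : ι) {η : ι → F} (hη : η j = 0) (A B : ℂ) :
    ∑ v : ι → F, ψ (η ⬝ᵥ v) * (if pr j v = 0 then A else B)
      = (Fintype.card F : ℂ) * (A - B)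
        + if η = 0 then (Fintype.card F : ℂ) ^ Fintype.card ι * B else 0 := by
  have h1 : ∀ v : ι → F, ψ (η ⬝ᵥ v) * (if pr j v = 0 then A else B)
      = (if pr j v = 0 then ψ (η ⬝ᵥ v) * (A - B) else 0) + ψ (η ⬝ᵥ v) * B := by
    intro v
    split_ifs <;> ring
  simp_rw [h1]
  rw [Finset.sum_add_distrib, sum_pr_eq_zero]
  congr 1
  · have : ∀ a : F, ψ (η ⬝ᵥ (a • (ee j : ι → F))) * (A - B) = A - B := by
      intro a
      rw [dotProduct_smul, dot_ee, hη, smul_zero, AddChar.map_zero_eq_one, one_mul]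
    rw [Finset.sum_congr rfl (fun a _ => this a)]
    simp
    ring
  · rw [← Finset.sum_mul]
    split_ifs with h0
    · subst h0
      simp
    · rw [sum_psi_dot hψ h0, zero_mul]

theorem dot_pr_comm (j : ι) (T y : ι → F) : pr j T ⬝ᵥ y = T ⬝ᵥ pr j y := by
  unfold dotProduct
  apply Finset.sum_congr rfl
  intro k _
  rw [pr_apply, pr_apply]
  split_ifs <;> simp

/-- a sum against a character which does not kill a period of `f` vanishes. -/
theorem sum_eq_zero_of_period {ψ : AddChar F ℂ} (f : (ι → F) → ℂ) (e T : ι → F)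
    (hf : ∀ v, f (v + e) = f v) (hT : ψ (T ⬝ᵥ e) ≠ 1) :
    ∑ v : ι → F, f v * conj (ψ (T ⬝ᵥ v)) = 0 := by
  have h1 : ∑ v : ι → F, f v * conj (ψ (T ⬝ᵥ v))
      = conj (ψ (T ⬝ᵥ e)) * ∑ v : ι → F, f v * conj (ψ (T ⬝ᵥ v)) := by
    conv_lhs => rw [← Equiv.sum_comp (Equiv.addRight e)]
    rw [Finset.mul_sum]
    apply Finset.sum_congr rfl
    intro v _
    simp only [Equiv.coe_addRight]
    rw [hf, dotProduct_add, AddChar.map_add_eq_mul, map_mul]
    ring
  have h2 : conj (ψ (T ⬝ᵥ e)) ≠ 1 := by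
    intro h
    apply hT
    have := congrArg conj h
    simpa using this
  have h3 : (1 - conj (ψ (T ⬝ᵥ e))) * ∑ v : ι → F, f v * conj (ψ (T ⬝ᵥ v)) = 0 := by
    rw [sub_mul, one_mul, ← h1, sub_self]
  rcases mul_eq_zero.1 h3 with h | h
  · exact absurd (sub_eq_zero.1 h).symm h2
  · exact h

end Cfsg.Agent.Lib.Helper39.SLmin
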